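import Cfsg.Agent.E6AltSection.Scalar

/-!
Irreducible modules: the kernel of a minimal covering of the alternating group of degree twelve acts by
scalars.
-/

set_option autoImplicit false
set_option linter.unusedSectionVars false
set_option linter.style.haveILetI false

namespace CfsgLib.E6AltSection

open Module Equiv CfsgLib.AltLinear
open scoped commutatorElement

variable {p : ℕ} [Fact p.Prime] {Γ : Type} [Group Γ] [Finite Γ] {π : Γ →* Alt 12} {g : Γ}
  {V : Type} [AddCommGroup V] [Module (Kp p) V] [FiniteDimensional (Kp p) V] (ρ : Representation (Kp p) Γ V)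

theorem faithful_scalar (hπ : Function.Surjective π) (hmin : ∀ M : Subgroup Γ, M ≠ ⊤ → M.map π ≠ ⊤)
    (hd : FiveData π g) [Nontrivial V] (hinj : ∀ h, ρ h = 1 → h = 1)
    (hirr : ∀ U : Submodule (Kp p) V, (∀ g, ∀ x ∈ U, ρ g x ∈ U) → U = ⊥ ∨ U = ⊤)
    (hn27 : finrank (Kp p) V ≤ 27) (hμ : ∀ μ : Kp p, μ ^ 5 = 1 → edim (ρ g) μ ≤ 7) :
    ∀ z ∈ π.ker, ∃ c : Kp p, ρ z = c • 1 := by
  obtain ⟨n, hn⟩ : ∃ n, finrank (Kp p) V = n := ⟨_, rfl⟩
  have hperf := perfect_of_min (by norm_num) hπ hmin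
  have hscal : ∀ (A : Subgroup Γ), A.Normal → (∀ a ∈ A, ∀ b ∈ A, a * b = b * a) →
      ∀ a ∈ A, ∃ c : Kp p, ρ a = c • 1 := fun A _ hA =>
    scalar_abelian ρ hπ hmin hd hirr hn27 hμ A hA
  have hZ : ∀ z ∈ Subgroup.center Γ, ∃ c : Kp p, ρ z = c • 1 :=
    hscal _ inferInstance fun a _ b hb => Subgroup.mem_center_iff.1 hb a
  have hcentral_of_scalar : ∀ (z : Γ) (c : Kp p), ρ z = c • (1 : Module.End (Kp p) V) → z ∈ Subgroup.center Γ := fun z c hz =>
    Subgroup.mem_center_iff.2 fun g => by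
      have hρ : ρ (g * z) = ρ (z * g) := by rw [map_mul, map_mul, hz, mul_smul_comm, mul_one, smul_mul_assoc, one_mul]
      have := hinj (g * z * (z * g)⁻¹) (by rw [map_mul, hρ, ← map_mul, mul_inv_cancel, map_one])
      exact mul_inv_eq_one.1 this
  suffices hK : π.ker ≤ Subgroup.center Γ from fun z hz => hZ z (hK hz)
  by_contra hKZ
  have hfr := map_ne_top_of_min hπ hmin
  haveI : Group.IsNilpotent (frattini Γ) := frattini_nilpotent
  haveI hKnil : Group.IsNilpotent π.ker :=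
    nilpotent_of_mulEquiv (Subgroup.subgroupOfEquivOfLe hfr)
  obtain ⟨l, hlp, P, hP⟩ : ∃ l : ℕ, l.Prime ∧ ∃ P : Sylow l π.ker, ¬ ((P : Subgroup π.ker).map π.ker.subtype ≤ Subgroup.center Γ) := by
    by_contra hall
    push Not at hall
    refine hKZ ?_
    let C : Subgroup π.ker := (Subgroup.center Γ).subgroupOf π.ker
    suffices C = ⊤ by
      intro x hx
      exact (this ▸ Subgroup.mem_top (⟨x, hx⟩ : π.ker) : (⟨x, hx⟩ : π.ker) ∈ C)
    rw [← Subgroup.index_eq_one]
    by_contra hne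
    obtain ⟨l, hl, hdvd⟩ := Nat.exists_prime_and_dvd hne
    haveI := Fact.mk hl
    obtain ⟨P⟩ : Nonempty (Sylow l π.ker) := Sylow.nonempty
    have hle : (P : Subgroup π.ker) ≤ C := fun x hx => hall l hl P ⟨x, hx, rfl⟩
    exact P.not_dvd_index' (by exact Subgroup.index_ne_zero_of_finite) (hdvd.trans (Subgroup.index_dvd_of_le hle))
  haveI := Fact.mk hlp
  haveI hPn : (P : Subgroup π.ker).Normal := by
    have := (Group.isNilpotent_of_finite_tfae (G := π.ker)).out 0 3
    exact this.1 hKnil l ⟨hlp⟩ P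
  haveI : (P : Subgroup π.ker).Characteristic := P.characteristic_of_normal hPn
  set P' := (P : Subgroup π.ker).map π.ker.subtype
  haveI hP'n : P'.Normal := inferInstance
  have hP'p : IsPGroup l P' := P.2.map _
  obtain ⟨N, ⟨hNn, hNP, hNZ⟩, hNmin⟩ := exists_minimal_of_wellFoundedLT
    (fun N : Subgroup Γ => N.Normal ∧ N ≤ P' ∧ ¬ N ≤ Subgroup.center Γ) ⟨P', hP'n, le_rfl, hP⟩
  haveI := hNn
  have hNp : IsPGroup l N := hP'p.to_le hNP
  -- commutators and powers of N are central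
  have hsmallN : (∀ x ∈ N, ∀ y ∈ N, ⁅x, y⁆ ∈ Subgroup.center Γ) ∧ ∀ x ∈ N, x ^ l ∈ Subgroup.center Γ := by
    let S : Set Γ := {z | ∃ x ∈ N, ∃ y ∈ N, z = ⁅x, y⁆} ∪ {z | ∃ x ∈ N, z = x ^ l}
    haveI : (Subgroup.closure S).Normal := normal_closure_of_invariant S fun g z hz => by
      rcases hz with ⟨x, hx, y, hy, rfl⟩ | ⟨x, hx, rfl⟩
      · exact Or.inl ⟨_, hNn.conj_mem x hx g, _, hNn.conj_mem y hy g, by simp only [commutatorElement_def]; group⟩
      · exact Or.inr ⟨_, hNn.conj_mem x hx g, by rw [conj_pow]⟩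
    suffices hle : Subgroup.closure S ≤ Subgroup.center Γ from
      ⟨fun x hx y hy => hle (Subgroup.subset_closure (Or.inl ⟨x, hx, y, hy, rfl⟩)),
        fun x hx => hle (Subgroup.subset_closure (Or.inr ⟨x, hx, rfl⟩))⟩
    by_contra hle
    have hNne : Nontrivial N := by
      rw [Subgroup.nontrivial_iff_ne_bot]
      rintro rfl
      exact hNZ bot_le
    obtain ⟨a, ha⟩ := IsPGroup.iff_card.1 hNp
    have ha1 : 1 ≤ a := by
      by_contra h0
      rw [show a = 0 by omega, pow_zero] at ha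
      have := Finite.one_lt_card (α := N)
      omega
    obtain ⟨M, hM⟩ := Sylow.exists_subgroup_card_pow_prime l (n := a - 1) (G := N)
      (by rw [ha]; exact pow_dvd_pow l (Nat.sub_le a 1))
    have hidx : M.index = l := by
      have h1 := M.card_mul_index
      rw [hM, ha] at h1
      refine Nat.eq_of_mul_eq_mul_left (pow_pos hlp.pos (a - 1)) ?_
      rw [h1, ← pow_succ, Nat.sub_add_cancel ha1]
    haveI : M.Normal := Subgroup.normal_of_index_eq_minFac_card (by
      rw [hidx, ha, Nat.pow_minFac (by omega), hlp.minFac_eq])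
    have hQ : Nat.card (N ⧸ M) = l := by rw [← Subgroup.index_eq_card, hidx]
    haveI : IsCyclic (N ⧸ M) := isCyclic_of_prime_card hQ
    have hleM : Subgroup.closure S ≤ M.map N.subtype := by
      rw [Subgroup.closure_le]
      rintro z (⟨x, hx, y, hy, rfl⟩ | ⟨x, hx, rfl⟩)
      · refine ⟨⁅(⟨x, hx⟩ : N), ⟨y, hy⟩⁆, ?_, map_commutatorElement N.subtype _ _⟩
        rw [SetLike.mem_coe, ← QuotientGroup.eq_one_iff, ← QuotientGroup.mk'_apply, map_commutatorElement,
          commutatorElement_eq_one_iff_mul_comm]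
        exact IsMulCommutative.is_comm.comm _ _
      · refine ⟨(⟨x, hx⟩ : N) ^ l, ?_, rfl⟩
        rw [SetLike.mem_coe, ← QuotientGroup.eq_one_iff, ← QuotientGroup.mk'_apply, map_pow, ← hQ, pow_card_eq_one']
    have hleN : Subgroup.closure S ≤ N := hleM.trans (Subgroup.map_subtype_le M)
    have := hNmin ⟨inferInstance, hleN.trans hNP, hle⟩ hleN
    have hMtop : M = ⊤ := eq_top_iff.2 fun x _ => by
      obtain ⟨y, hy, hyx⟩ := hleM (this x.2)
      rwa [← Subtype.ext hyx]
    rw [hMtop, Subgroup.index_top] at hidx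
    exact hlp.one_lt.ne hidx
  obtain ⟨hcomm, hpow⟩ := hsmallN
  let ZN : Subgroup N := (Subgroup.center Γ).subgroupOf N
  -- linear independence bound
  have hQcard : Nat.card (N ⧸ ZN) ≤ n * n := by
    classical
    have hsc : ∀ x y : N, ∃ c : Kp p, ρ ⁅y.1, x.1⁆ = c • 1 := fun x y => hZ _ (hcomm y.1 y.2 x.1 x.2)
    choose χ hχ using hsc
    let T : N → Module.End (Kp p) (Module.End (Kp p) V) := fun y =>
      LinearMap.mulLeft (Kp p) (ρ y.1) ∘ₗ LinearMap.mulRight (Kp p) (ρ y.1⁻¹)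
    have hT : ∀ y E, T y E = ρ y.1 * E * ρ y.1⁻¹ := fun y E => (mul_assoc _ _ _).symm
    have hTc : ∀ y y', Commute (T y) (T y') := fun y y' => LinearMap.ext fun E => by
      show T y (T y' E) = T y' (T y E)
      simp only [hT]
      obtain ⟨c, hc⟩ := hZ _ (hcomm y.1 y.2 y'.1 y'.2)
      obtain ⟨c', hc'⟩ := hZ _ (Subgroup.inv_mem _ (hcomm y.1 y.2 y'.1 y'.2))
      have e1 : ρ y.1 * ρ y'.1 = c • (ρ y'.1 * ρ y.1) := by
        rw [← map_mul, ← map_mul, show y.1 * y'.1 = ⁅y.1, y'.1⁆ * (y'.1 * y.1) by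
          simp only [commutatorElement_def]; group, map_mul, hc, smul_mul_assoc, one_mul]
      have e2 : ρ y'.1⁻¹ * ρ y.1⁻¹ = c' • (ρ y.1⁻¹ * ρ y'.1⁻¹) := by
        rw [← map_mul, ← map_mul, show y'.1⁻¹ * y.1⁻¹ = (y.1⁻¹ * y'.1⁻¹) * ⁅y.1, y'.1⁆⁻¹ by
          simp only [commutatorElement_def]; group, map_mul, hc', mul_smul_comm, mul_one]
      have hcc : c * c' = 1 := by
        have : ρ (⁅y.1, y'.1⁆ * ⁅y.1, y'.1⁆⁻¹) = (c * c') • 1 := by
          rw [map_mul, hc, hc', smul_mul_smul_comm, one_mul]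
        rw [mul_inv_cancel, map_one] at this
        obtain ⟨x, hx⟩ := exists_ne (0 : V)
        have h1 := DFunLike.congr_fun this x
        simp only [Module.End.one_apply, LinearMap.smul_apply] at h1
        by_contra hne
        exact hx ((smul_eq_zero.1 (show (c * c' - 1) • x = 0 by rw [sub_smul, one_smul, ← h1, sub_self])).resolve_left
          (sub_ne_zero.2 hne))
      calc ρ y.1 * (ρ y'.1 * E * ρ y'.1⁻¹) * ρ y.1⁻¹
          = (ρ y.1 * ρ y'.1) * E * (ρ y'.1⁻¹ * ρ y.1⁻¹) := by noncomm_ring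
        _ = (c * c') • ((ρ y'.1 * ρ y.1) * E * (ρ y.1⁻¹ * ρ y'.1⁻¹)) := by
            rw [e1, e2]; simp only [smul_mul_assoc, mul_smul_comm, smul_smul]; rw [mul_comm c' c]
        _ = ρ y'.1 * (ρ y.1 * E * ρ y.1⁻¹) * ρ y'.1⁻¹ := by rw [hcc, one_smul]; noncomm_ring
    have hw : ∀ (x : N), ∀ y, T y (ρ x.1) = χ x y • ρ x.1 := fun x y => by
      rw [hT, ← map_mul, ← map_mul, show y.1 * x.1 * y.1⁻¹ = ⁅y.1, x.1⁆ * x.1 by
        simp only [commutatorElement_def]; group, map_mul, hχ, smul_mul_assoc, one_mul]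
    have hsep : ∀ x x' : N, χ x = χ x' → (x : N ⧸ ZN) = (x' : N ⧸ ZN) := by
      intro x x' hxx
      rw [QuotientGroup.eq, Subgroup.mem_subgroupOf]
      have hcent : ∀ y : N, ⁅y.1, x.1⁆ = ⁅y.1, x'.1⁆ := fun y => by
        have := hinj (⁅y.1, x.1⁆ * ⁅y.1, x'.1⁆⁻¹) (by
          rw [map_mul, hχ, congrFun hxx y, ← hχ, ← map_mul, mul_inv_cancel, map_one])
        exact mul_inv_eq_one.1 this
      set w := (x⁻¹ * x' : N)
      have hw' : ∀ y ∈ N, y * w.1 = w.1 * y := fun y hy => by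
        have e := hcent ⟨y, hy⟩
        have e1 : y * x.1 * y⁻¹ = ⁅y, x.1⁆ * x.1 := by simp only [commutatorElement_def]; group
        have e2 : y * x'.1 * y⁻¹ = ⁅y, x'.1⁆ * x'.1 := by simp only [commutatorElement_def]; group
        have : y * (x.1⁻¹ * x'.1) * y⁻¹ = x.1⁻¹ * x'.1 := by
          rw [show y * (x.1⁻¹ * x'.1) * y⁻¹ = (y * x.1 * y⁻¹)⁻¹ * (y * x'.1 * y⁻¹) by group, e1, e2, e]
          group
        exact mul_inv_eq_iff_eq_mul.1 this
      haveI : (N ⊓ Subgroup.centralizer (N : Set Γ)).Normal := inferInstance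
      obtain ⟨c, hc⟩ := hscal (N ⊓ Subgroup.centralizer (N : Set Γ)) inferInstance
        (fun a ha b hb => Subgroup.mem_centralizer_iff.1 hb.2 a ha.1) w.1
        ⟨w.2, Subgroup.mem_centralizer_iff.2 hw'⟩
      exact hcentral_of_scalar _ c hc
    haveI : Fintype (N ⧸ ZN) := Fintype.ofFinite _
    choose rep hrep using fun z : N ⧸ ZN => QuotientGroup.mk_surjective z
    have := card_weights_le T hTc (Finset.univ.image fun z => χ (rep z)) (fun f hf => by
      obtain ⟨z, -, rfl⟩ := Finset.mem_image.1 hf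
      refine ⟨ρ (rep z).1, fun h0 => ?_, hw _⟩
      obtain ⟨v, hv⟩ := exists_ne (0 : V)
      have := rep_inv_apply ρ (rep z).1 v
      rw [h0] at this
      exact hv (by simpa using this.symm))
    rw [Finset.card_image_of_injective _ (fun z z' e => by rw [← hrep z, ← hrep z']; exact hsep _ _ e),
      Finset.card_univ, Module.finrank_linearMap, hn] at this
    rwa [Nat.card_eq_fintype_card]
  -- the action on the quotient
  let conjN : Γ →* MulAut N := MulAut.conjNormal
  have hZinv : ∀ g : Γ, ∀ z ∈ ZN, conjN g z ∈ ZN := fun g z hz => by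
    rw [Subgroup.mem_subgroupOf] at hz ⊢
    show (conjN g z : Γ) ∈ _
    rw [MulAut.conjNormal_apply, Subgroup.mem_center_iff.1 hz, mul_inv_cancel_right]
    exact hz
  haveI : ZN.Normal := inferInstance
  letI : CommGroup (N ⧸ ZN) :=
    { (inferInstance : Group (N ⧸ ZN)) with
      mul_comm := fun a b => by
        obtain ⟨x, rfl⟩ := QuotientGroup.mk'_surjective ZN a
        obtain ⟨y, rfl⟩ := QuotientGroup.mk'_surjective ZN b
        rw [← commutatorElement_eq_one_iff_mul_comm, ← map_commutatorElement, QuotientGroup.mk'_apply,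
          QuotientGroup.eq_one_iff, Subgroup.mem_subgroupOf]
        exact hcomm x.1 x.2 y.1 y.2 }
  let ψ : Γ →* Monoid.End (N ⧸ ZN) :=
    { toFun := fun g => QuotientGroup.map ZN ZN (conjN g).toMonoidHom (fun z hz => hZinv g z hz)
      map_one' := MonoidHom.ext fun z => by
        obtain ⟨x, rfl⟩ := QuotientGroup.mk'_surjective ZN z
        show (QuotientGroup.mk' ZN) (conjN 1 x) = QuotientGroup.mk' ZN x
        rw [map_one]; rfl
      map_mul' := fun g g' => MonoidHom.ext fun z => by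
        obtain ⟨x, rfl⟩ := QuotientGroup.mk'_surjective ZN z
        show (QuotientGroup.mk' ZN) (conjN (g * g') x) = QuotientGroup.mk' ZN (conjN g (conjN g' x))
        rw [map_mul]; rfl }
  have hexp : ∀ z : N ⧸ ZN, z ^ l = 1 := fun z => by
    obtain ⟨x, rfl⟩ := QuotientGroup.mk'_surjective ZN z
    rw [← map_pow, QuotientGroup.mk'_apply, QuotientGroup.eq_one_iff, Subgroup.mem_subgroupOf]
    exact hpow x.1 x.2
  have hσk : ∀ g, ψ g = 1 → π g = 1 := by
    rcases normal_eq_top_or_le (by omega) hπ hmin ψ.ker with htop | h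
    · exfalso
      refine hNZ fun x hx => Subgroup.mem_center_iff.2 fun g => ?_
      have hmem : ∀ g : Γ, ⁅g, x⁆ ∈ Subgroup.center Γ := fun g => by
        have h1 : ψ g = 1 := (htop ▸ Subgroup.mem_top g : g ∈ ψ.ker)
        have h2 : ((conjN g ⟨x, hx⟩ : N) : N ⧸ ZN) = ((⟨x, hx⟩ : N) : N ⧸ ZN) :=
          DFunLike.congr_fun h1 ((⟨x, hx⟩ : N) : N ⧸ ZN)
        have h3 := QuotientGroup.eq.1 h2.symm
        rw [Subgroup.mem_subgroupOf] at h3
        have h4 : x⁻¹ * (g * x * g⁻¹) ∈ Subgroup.center Γ := h3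
        rw [show ⁅g, x⁆ = x * (x⁻¹ * (g * x * g⁻¹)) * x⁻¹ by simp only [commutatorElement_def]; group,
          Subgroup.mem_center_iff.1 h4 x, mul_inv_cancel_right]
        exact h4
      let f : Γ →* Subgroup.center Γ :=
        { toFun := fun g => ⟨⁅g, x⁆, hmem g⟩
          map_one' := Subtype.ext (commutatorElement_one_left x)
          map_mul' := fun g g' => Subtype.ext (by
            show ⁅g * g', x⁆ = ⁅g, x⁆ * ⁅g', x⁆
            rw [show ⁅g * g', x⁆ = g * ⁅g', x⁆ * g⁻¹ * ⁅g, x⁆ by simp only [commutatorElement_def]; group,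
              Subgroup.mem_center_iff.1 (hmem g') g, mul_inv_cancel_right,
              Subgroup.mem_center_iff.1 (hmem g) ⁅g', x⁆]) }
      have := congrArg Subtype.val (hom_comm_eq_one hperf (fun a b => Subtype.ext (Subgroup.mem_center_iff.1 b.2 a.1)) f g)
      exact commutatorElement_eq_one_iff_mul_comm.1 this
    · exact fun g hg => h hg
  obtain ⟨d, τ, hQd, hτk⟩ := exists_matrix_rep l hexp ψ
  obtain ⟨d, τ, hQd, hτk⟩ := exists_matrix_rep l hexp ψ
  have hτ : ∀ g, τ g = 1 → π g = 1 := fun g hg => hσk g (hτk g hg)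
  let τ' : Representation (Kp l) Γ (Fin d → Kp l) :=
    ((Matrix.toLinAlgEquiv' (R := Kp l) (n := Fin d)).toMonoidHom).comp
      (((algebraMap (ZMod l) (Kp l)).mapMatrix : Matrix (Fin d) (Fin d) (ZMod l) →+* Matrix (Fin d) (Fin d) (Kp l)).toMonoidHom.comp τ)
  have hd' := alt_section_bound 12 (by norm_num) d l (Fin d → Kp l) (Module.finrank_fin_fun _) Γ τ' π hπ (fun g hg => hτ g (by
    have h1 := (Matrix.toLinAlgEquiv' (R := Kp l) (n := Fin d)).injective (hg.trans (map_one _).symm)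
    exact Matrix.map_injective (algebraMap (ZMod l) (Kp l)).injective (h1.trans (map_one
      ((algebraMap (ZMod l) (Kp l)).mapMatrix : Matrix (Fin d) (Fin d) (ZMod l) →+* _)).symm)))
  have h10 : 10 ≤ d := le_trans (le_altBound (r := 12) (p := l)).1 hd'
  have h1 : 2 ^ 10 ≤ l ^ d := (Nat.pow_le_pow_right (by norm_num) h10).trans (Nat.pow_le_pow_left hlp.two_le d)
  have h2 : n * n ≤ 27 * 27 := Nat.mul_le_mul (hn ▸ hn27) (hn ▸ hn27)
  rw [← hQd] at h1
  omega

end CfsgLib.E6AltSection
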