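import Cfsg.Agent.E6AltSection.Semi

/-!
The alternating group of degree twelve has no module of dimension twenty-seven in which the eigenspaces of
a five-cycle have dimensions seven and five.
-/

set_option autoImplicit false
set_option linter.unusedSectionVars false
set_option linter.style.haveILetI false

namespace CfsgLib.E6AltSection

open Module Equiv CfsgLib.AltLinear

variable {p : ℕ} [Fact p.Prime]

/-- The five-cycle in degree nine. -/
def five9 : Fin 5 ↪ Fin 9 := mkEmb ![0, 1, 2, 3, 4] (by decide)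

/-- The four other letters in degree nine. -/
def four9 : Fin 4 ↪ Fin 9 := mkEmb ![5, 6, 7, 8] (by decide)

variable {U : Type} [AddCommGroup U] [Module (Kp p) U] [FiniteDimensional (Kp p) U]

theorem alt9_small (hp : 7 ≤ p) (τ : Representation (Kp p) (Alt 9) U) (hd : finrank (Kp p) U < 8) (x : Alt 9) :
    τ x = 1 := by
  by_contra hx
  have hker : ∀ h, τ h = 1 → MonoidHom.id (Alt 9) h = 1 := fun h hh => by
    by_contra hne
    exact hx (eq_one_of_map_eq_one (by norm_num) τ hne hh x)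
  have := alt_section_bound 9 le_rfl _ p U rfl (Alt 9) τ (MonoidHom.id _) Function.surjective_id hker
  have hnd : ¬ p ∣ 9 := fun h => by
    have := (Nat.prime_dvd_prime_iff_eq (Fact.out : p.Prime) Nat.prime_three).1
      ((Fact.out : p.Prime).dvd_of_dvd_pow (show p ∣ 3 ^ 2 from h))
    omega
  rw [altBound, if_neg hnd] at this
  omega

theorem alt9_fixed (h2 : (2 : Kp p) ≠ 0) (h5 : ((5 : ℕ) : Kp p) ≠ 0) (τ : Representation (Kp p) (Alt 9) U)
    (hlo : 3 ≤ finrank (Kp p) U) (hhi : finrank (Kp p) U < 12) : 3 ≤ edim (τ (em five9 c5)) 1 := by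
  classical
  set e : Alt 9 := em five9 c5
  set t : Alt 9 := em four9 t4
  have hT : τ e ^ 5 = 1 := rep_pow_five τ five9
  have hdis : ∀ i j, four9 i ≠ five9 j := by decide
  have hmove : ∀ μ : Kp p, (∃ x ∈ End.eigenspace (τ e) μ, τ t x ≠ x) → 3 ≤ edim (τ e) μ := by
    rintro μ ⟨x, hx, hxt⟩
    have hU : ∀ g : Alt 4, ∀ y ∈ End.eigenspace (τ e) μ, (τ.comp (em four9)) g y ∈ End.eigenspace (τ e) μ :=
      fun g => eigen_invariant τ (em_comm four9 five9 g c5 hdis) μ
    refine three_le_of_ne (restrictRep (τ.comp (em four9)) _ hU) h2 (Function.Embedding.refl _) fun h => hxt ?_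
    have hr : em (Function.Embedding.refl (Fin 4)) t4 = t4 := em_eq _ _ _ (fun i => rfl) (fun z hz => absurd rfl (hz z))
    rw [hr] at h
    exact (restrictRep_eq_one_iff _ _ hU t4).1 h x hx
  haveI : NeZero ((5 : ℕ) : Kp p) := ⟨h5⟩
  obtain ⟨ζ, hζ⟩ := HasEnoughRootsOfUnity.exists_primitiveRoot (Kp p) 5
  by_cases hall : ∀ i : Fin 5, ∀ x ∈ End.eigenspace (τ e) (ζ ^ i.val), τ t x = x
  · have h1 : End.eigenspace (τ t) 1 = ⊤ := by
      refine Submodule.eq_top_of_finrank_eq ?_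
      have hinv : ∀ x ∈ End.eigenspace (τ t) 1, τ e x ∈ End.eigenspace (τ t) 1 :=
        eigen_invariant τ (em_comm four9 five9 t4 c5 hdis).symm 1
      rw [← sum_inf (τ e) h5 hT hζ _ hinv, ← sum_edim (τ e) h5 hT hζ]
      refine Finset.sum_congr rfl fun i _ => ?_
      rw [edim]
      refine LinearEquiv.finrank_eq (LinearEquiv.ofEq _ _ (inf_eq_right.2 fun x hx => ?_))
      rw [End.mem_eigenspace_iff, one_smul]
      exact hall i x hx
    have ht : τ t = 1 := LinearMap.ext fun x => by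
      have hx : x ∈ End.eigenspace (τ t) 1 := h1 ▸ Submodule.mem_top
      simpa using hx
    rw [eq_one_of_map_eq_one (by norm_num) τ (em_ne_one four9 t4_ne_one) ht e, edim_one_end, if_pos rfl]
    exact hlo
  · push Not at hall
    obtain ⟨i, x, hx, hxt⟩ := hall
    by_cases h0 : ζ ^ i.val = 1
    · exact h0 ▸ hmove _ ⟨x, hx, hxt⟩
    exfalso
    set μ := ζ ^ i.val
    have hμ5 : μ ^ 5 = 1 := by rw [← pow_mul, mul_comm, pow_mul, hζ.pow_eq_one, one_pow]
    haveI := Fact.mk Nat.prime_five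
    have hμ : IsPrimitiveRoot μ 5 := IsPrimitiveRoot.iff_orderOf.2 (orderOf_eq_prime hμ5 h0)
    let y : Alt 9 := ⟨swap 1 2 * swap 2 4 * swap 4 3 * swap 5 6, Perm.mem_alternatingGroup.2 (by decide)⟩
    have hye : y * e * y⁻¹ = e ^ 2 := by
      rw [em_conj y five9 (dbl.toEmbedding.trans five9) c5 (by decide), em_c5_sq]
    have hyt : y * t = t * y := by
      have h : y * t * y⁻¹ = t := by
        rw [em_conj y four9 ((swap (0 : Fin 4) 1).toEmbedding.trans four9) t4 (by decide),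
          em_perm four9 (swap 0 1) t4 t4 (by decide)]
      exact mul_inv_eq_iff_eq_mul.1 h
    have step : ∀ a : Kp p, (∃ x ∈ End.eigenspace (τ e) a, τ t x ≠ x) →
        ∃ x ∈ End.eigenspace (τ e) (a ^ 2), τ t x ≠ x := by
      rintro a ⟨z, hz, hzt⟩
      refine ⟨τ y⁻¹ z, ?_, fun h => hzt ?_⟩
      · rw [End.mem_eigenspace_iff] at hz ⊢
        rw [← rep_mul_apply, show e * y⁻¹ = y⁻¹ * e ^ 2 by rw [← hye]; group, rep_mul_apply, map_pow,
          pow_apply_eigen (τ e) hz, map_smul]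
      · have := congrArg (τ y) h
        rwa [rep_apply_inv, ← rep_mul_apply, hyt, rep_mul_apply, rep_apply_inv] at this
    have m1 : ∃ x ∈ End.eigenspace (τ e) μ, τ t x ≠ x := ⟨x, hx, hxt⟩
    have m2 := step _ m1
    have m4 := step _ m2
    have m3 := step _ m4
    rw [← pow_mul] at m4
    rw [← pow_mul, ← pow_mul, show μ ^ (2 * (2 * 2)) = μ ^ 3 by
      rw [show 2 * (2 * 2) = 5 + 3 from rfl, pow_add, hμ5, one_mul]] at m3
    have hs := sum_edim (τ e) h5 hT hμ
    rw [Fin.sum_univ_five] at hs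
    simp only [Fin.val_zero, Fin.val_one, Fin.val_two, show ((3 : Fin 5) : ℕ) = 3 from rfl,
      show ((4 : Fin 5) : ℕ) = 4 from rfl] at hs
    have g1 := hmove _ m1
    have g2 := hmove _ m2
    have g4 := hmove _ m4
    have g3 := hmove _ m3
    rw [← pow_one μ] at g1
    simp only [Nat.reduceMul] at g4
    omega

/-- Nine letters. -/
def nine : Fin 9 ↪ Fin 12 := mkEmb ![0, 1, 2, 3, 4, 5, 6, 7, 8] (by decide)

/-- The three other letters. -/
def tri : Fin 3 ↪ Fin 12 := mkEmb ![9, 10, 11] (by decide)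

variable {V : Type} [AddCommGroup V] [Module (Kp p) V] [FiniteDimensional (Kp p) V]

theorem no_honest (hp : 7 ≤ p) (σ : Representation (Kp p) (Alt 12) V) (hV : finrank (Kp p) V = 27)
    (h1 : edim (σ (em five c5)) 1 = 7) (hspec : ∀ μ : Kp p, μ ^ 5 = 1 → μ ≠ 1 → edim (σ (em five c5)) μ = 5) :
    False := by
  classical
  have hcast : ∀ l : ℕ, l.Prime → l < 7 → ((l : ℕ) : Kp p) ≠ 0 := fun l hl hlt h => by
    have := (Nat.prime_dvd_prime_iff_eq Fact.out hl).1 ((CharP.cast_eq_zero_iff (Kp p) p l).1 h)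
    omega
  have h2 : (2 : Kp p) ≠ 0 := by simpa using hcast 2 Nat.prime_two (by norm_num)
  have h5 : ((5 : ℕ) : Kp p) ≠ 0 := hcast 5 Nat.prime_five (by norm_num)
  have h3 : ((3 : ℕ) : Kp p) ≠ 0 := hcast 3 Nat.prime_three (by norm_num)
  haveI : NeZero ((3 : ℕ) : Kp p) := ⟨h3⟩
  haveI : NeZero ((5 : ℕ) : Kp p) := ⟨h5⟩
  obtain ⟨ω, hω⟩ := HasEnoughRootsOfUnity.exists_primitiveRoot (Kp p) 3
  have hω0 : ω ≠ 0 := hω.ne_zero (by norm_num)
  have hωinv : ω ^ 2 = ω⁻¹ := eq_inv_of_mul_eq_one_left (by rw [← pow_succ, hω.pow_eq_one])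
  set Fe : Kp p → Submodule (Kp p) V := fun μ => End.eigenspace (σ (em five c5)) μ with hFe
  set E : Kp p → Submodule (Kp p) V := fun a => End.eigenspace (σ (A tri)) a with hE
  have hdis : ∀ i j, nine i ≠ tri j := by decide
  have hEn : ∀ a, ∀ g : Alt 9, ∀ x ∈ E a, (σ.comp (em nine)) g x ∈ E a := fun a g =>
    eigen_invariant σ (em_comm nine tri g c3 hdis) a
  let τ : ∀ a, Representation (Kp p) (Alt 9) (E a) := fun a => restrictRep (σ.comp (em nine)) (E a) (hEn a)
  have hfive : em nine (em five9 c5) = em five c5 := by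
    rw [em_trans, show five9.trans nine = five from Function.Embedding.ext (by decide)]
  have hτ : ∀ a μ, edim (τ a (em five9 c5)) μ = finrank (Kp p) ↥(E a ⊓ Fe μ) := fun a μ => by
    show edim (((σ.comp (em nine)) (em five9 c5)).restrict (hEn a (em five9 c5))) μ = _
    rw [edim_restrict]
    refine LinearEquiv.finrank_eq (LinearEquiv.ofEq _ _ ?_)
    show E a ⊓ End.eigenspace (σ (em nine (em five9 c5))) μ = _
    rw [hfive]
  have htriv : ∀ a μ, finrank (Kp p) (E a) < 8 →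
      finrank (Kp p) ↥(E a ⊓ Fe μ) = if μ = 1 then finrank (Kp p) (E a) else 0 := fun a μ hlt => by
    rw [← hτ, alt9_small hp (τ a) hlt, edim_one_end]
  -- the decomposition
  have hsum : ∀ U : Submodule (Kp p) V, (∀ x ∈ U, σ (A tri) x ∈ U) →
      finrank (Kp p) ↥(U ⊓ E 1) + finrank (Kp p) ↥(U ⊓ E ω) + finrank (Kp p) ↥(U ⊓ E ω⁻¹) = finrank (Kp p) U := by
    intro U hU
    have := sum_inf (n := 3) (σ (A tri)) h3 (rep_pow_three σ tri) hω U hU
    rw [Fin.sum_univ_three] at this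
    simp only [Fin.val_zero, Fin.val_one, Fin.val_two] at this
    have hE' : ∀ a b : Kp p, a = b →
        finrank (Kp p) ↥(U ⊓ End.eigenspace (σ (A tri)) a) = finrank (Kp p) ↥(U ⊓ E b) :=
      fun a b h => by subst h; rfl
    rwa [hE' _ _ (pow_zero ω), hE' _ _ (pow_one ω), hE' _ _ hωinv] at this
  let g : Alt 12 := ⟨swap 10 11 * swap 5 6, Perm.mem_alternatingGroup.2 (by decide)⟩
  have hgt : g * A tri * g⁻¹ = (A tri)⁻¹ := by
    rw [A, em_conj g tri ((swap (1 : Fin 3) 2).toEmbedding.trans tri) c3 (by decide),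
      em_perm tri (swap 1 2) c3 c3⁻¹ (by decide), map_inv]
  have hge : g * em five c5 * g⁻¹ = em five c5 := em_conj g five five c5 (by decide)
  have hmap : (E ω).map (σ g) = E ω⁻¹ := by
    show (End.eigenspace (σ (A tri)) ω).map (σ g) = End.eigenspace (σ (A tri)) ω⁻¹
    rw [map_eigen_conj, hgt]
    refine le_antisymm (eigenspace_inv σ _ _) fun x hx => ?_
    rw [End.mem_eigenspace_iff] at hx ⊢
    have := congrArg (σ (A tri)⁻¹) hx
    rw [rep_inv_apply, map_smul] at this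
    conv_rhs => rw [this]
    rw [smul_inv_smul₀ hω0]
  have heq : finrank (Kp p) (E ω⁻¹) = finrank (Kp p) (E ω) := by rw [← hmap, finrank_map_rep]
  have heq' : ∀ μ, finrank (Kp p) ↥(E ω⁻¹ ⊓ Fe μ) = finrank (Kp p) ↥(E ω ⊓ Fe μ) := fun μ => by
    rw [← finrank_map_rep σ g (E ω ⊓ Fe μ), Submodule.map_inf _ (rep_injective σ g), hmap]
    refine LinearEquiv.finrank_eq (LinearEquiv.ofEq _ _ ?_)
    show _ = E ω⁻¹ ⊓ (End.eigenspace (σ (em five c5)) μ).map (σ g)
    rw [map_eigen_conj, hge]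
  have htot := hsum ⊤ fun x _ => Submodule.mem_top
  rw [top_inf_eq, top_inf_eq, top_inf_eq, finrank_top, hV, heq] at htot
  have hdec : ∀ μ, finrank (Kp p) ↥(E 1 ⊓ Fe μ) + 2 * finrank (Kp p) ↥(E ω ⊓ Fe μ) = edim (σ (em five c5)) μ := fun μ => by
    have := hsum (Fe μ) (eigen_invariant σ (em_comm tri five c3 c5 (by decide)) μ)
    rw [inf_comm (Fe μ), inf_comm (Fe μ), inf_comm (Fe μ), heq'] at this
    show _ = finrank (Kp p) ↥(Fe μ)
    omega
  set d := finrank (Kp p) (E ω)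
  set d0 := finrank (Kp p) (E 1)
  by_cases hd3 : d ≤ 3
  · let a : Fin 3 ↪ Fin 12 := mkEmb ![0, 1, 2] (by decide)
    let c : Fin 3 ↪ Fin 12 := mkEmb ![2, 3, 4] (by decide)
    have hac : A a * A c = em five c5 := by
      rw [A, A, em_eq a c3 ⟨swap 0 1 * swap 1 2, Perm.mem_alternatingGroup.2 (by decide)⟩ (by decide) (by decide),
        em_eq c c3 ⟨swap 2 3 * swap 3 4, Perm.mem_alternatingGroup.2 (by decide)⟩ (by decide) (by decide)]
      exact (em_eq five c5 _ (by decide) (by decide)).symm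
    have hfix : ∀ f : Fin 3 ↪ Fin 12, finrank (Kp p) (End.eigenspace (σ (A f)) 1) = d0 := fun f => by
      obtain ⟨g, hg⟩ := exists_em_conj tri f (by norm_num)
      rw [A, ← hg c3]
      exact finrank_eigen_conj σ g _ 1
    have hle : End.eigenspace (σ (A a)) 1 ⊓ End.eigenspace (σ (A c)) 1 ≤ Fe 1 := fun x hx => by
      obtain ⟨hxa, hxc⟩ := Submodule.mem_inf.1 hx
      simp only [hFe, End.mem_eigenspace_iff, one_smul] at hxa hxc ⊢
      rw [← hac, rep_mul_apply, hxc, hxa]
    have i1 := Submodule.finrank_mono hle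
    have i2 := Submodule.finrank_sup_add_finrank_inf_eq (End.eigenspace (σ (A a)) 1) (End.eigenspace (σ (A c)) 1)
    have i3 := Submodule.finrank_le (End.eigenspace (σ (A a)) 1 ⊔ End.eigenspace (σ (A c)) 1)
    have i4 : finrank (Kp p) ↥(Fe 1) = 7 := h1
    rw [hfix, hfix] at i2
    omega
  have hd1 := hdec 1
  by_cases hd7 : d ≤ 7
  · have := htriv ω 1 (by omega)
    rw [if_pos rfl] at this
    omega
  by_cases hd9 : d ≤ 9
  · have a1 := alt9_fixed h2 h5 (τ ω) (by omega) (by omega)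
    have a0 := alt9_fixed h2 h5 (τ 1) (show 3 ≤ d0 by omega) (show d0 < 12 by omega)
    rw [hτ] at a1 a0
    omega
  obtain ⟨ζ, hζ⟩ := HasEnoughRootsOfUnity.exists_primitiveRoot (Kp p) 5
  have hζ1 : ζ ≠ 1 := hζ.ne_one (by norm_num)
  have h0 := htriv 1 ζ (by omega)
  rw [if_neg hζ1] at h0
  have := hdec ζ
  rw [hspec ζ hζ.pow_eq_one hζ1] at this
  omega

end CfsgLib.E6AltSection
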