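import Cfsg.Agent.E6AltSection.Counts
import Cfsg.Agent.E6AltSection.Torus
import Cfsg.Agent.AltLinear.Reduction

/-!
Alternating images of subgroups of the Steinberg cover of type E₆: the kernel of a minimal covering of
the alternating group of degree twelve has no elements of order five, so five-cycles lift uniquely up to
conjugation.
-/

set_option autoImplicit false
set_option linter.unusedSectionVars false
set_option linter.style.haveILetI false

namespace CfsgLib.E6AltSection

open Cfsg.Lie CfsgLib.Chevalley CfsgLib.ChevSteinberg CfsgLib.AltLinear Equiv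

theorem eq_one_of_coprime {G : Type*} [Group G] {x : G} {a b : ℕ} (hab : Nat.Coprime a b) (ha : x ^ a = 1)
    (hb : x ^ b = 1) : x = 1 := by
  have := Nat.eq_one_of_dvd_coprimes hab (orderOf_dvd_of_pow_eq_one ha) (orderOf_dvd_of_pow_eq_one hb)
  exact orderOf_eq_one_iff.1 this

section Group

variable {Γ : Type} [Group Γ] [Finite Γ] {π : Γ →* Alt 12}

/-- A minimal covering of the alternating group of degree twelve has no central five-group in the kernel. -/
theorem central_five_eq_bot (hπ : Function.Surjective π) (hmin : ∀ M : Subgroup Γ, M ≠ ⊤ → M.map π ≠ ⊤)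
    (P : Subgroup Γ) (hPK : P ≤ π.ker) (hP : IsPGroup 5 P) (hcop : ¬ 5 ∣ (P.subgroupOf π.ker).index)
    (hc : P ≤ Subgroup.center Γ) : P = ⊥ := by
  classical
  haveI := Fact.mk Nat.prime_five
  set K := π.ker
  haveI : (P.subgroupOf K).Normal := ⟨fun n hn g => by
    rw [Subgroup.mem_subgroupOf] at hn ⊢
    rw [Subgroup.coe_mul, Subgroup.coe_mul, Subgroup.coe_inv, Subgroup.mem_center_iff.1 (hc hn), mul_inv_cancel_right]
    exact hn⟩
  obtain ⟨a, ha⟩ := IsPGroup.iff_card.1 hP
  have hPc : Nat.card (P.subgroupOf K) = 5 ^ a := by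
    rw [Nat.card_congr (Subgroup.subgroupOfEquivOfLe hPK).toEquiv, ha]
  have hco : Nat.Coprime (Nat.card (P.subgroupOf K)) (P.subgroupOf K).index := by
    rw [hPc]
    exact Nat.Coprime.pow_left _ ((Nat.prime_five.coprime_iff_not_dvd).2 hcop)
  obtain ⟨Q, hQ⟩ := Subgroup.exists_right_complement'_of_coprime hco
  set m := (P.subgroupOf K).index
  have hQm : ∀ q ∈ Q, q ^ m = 1 := fun q hq => by
    have hcard : Nat.card Q = m := hQ.symm.index_eq_card.symm
    have := congrArg Subtype.val (pow_card_eq_one' (x := (⟨q, hq⟩ : Q)))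
    rw [hcard] at this
    exact this
  have hmem : ∀ x : K, x ^ m = 1 → x ∈ Q := fun x hx => by
    obtain ⟨⟨⟨u, hu⟩, ⟨v, hv⟩⟩, e, -⟩ := hQ.existsUnique x
    have huv : (⟨u, hu⟩ : P.subgroupOf K).1 * v = x := e
    have hcomm : Commute u v := Subtype.ext (Subgroup.mem_center_iff.1 (hc hu) v).symm
    rw [← huv, hcomm.mul_pow, hQm v hv, mul_one] at hx
    have : u = 1 := eq_one_of_coprime hco
      (by
        have := congrArg Subtype.val (pow_card_eq_one' (x := (⟨u, hu⟩ : P.subgroupOf K)))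
        exact this) hx
    have e2 : x = v := huv.symm.trans (show u * v = v by rw [this, one_mul])
    rw [e2]
    exact hv
  set N : Subgroup Γ := Q.map K.subtype
  haveI hN : N.Normal := ⟨by
    rintro _ ⟨q, hq, rfl⟩ g
    have hmem' : g * (q : Γ) * g⁻¹ ∈ K := (MonoidHom.normal_ker π).conj_mem _ q.2 g
    refine ⟨⟨_, hmem'⟩, hmem _ (Subtype.ext ?_), rfl⟩
    rw [Subgroup.coe_pow, conj_pow, ← Subgroup.coe_pow, hQm q hq]
    simp⟩
  have hNK : N ≤ K := Subgroup.map_subtype_le Q
  let πb : Γ ⧸ N →* Alt 12 := QuotientGroup.lift N π hNK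
  let q : Γ ⧸ N →* Perm (Fin 12) := (alternatingGroup (Fin 12)).subtype.comp πb
  have hkerP : ∀ x : Γ, π x = 1 → ∃ u ∈ P, (QuotientGroup.mk x : Γ ⧸ N) = QuotientGroup.mk u := fun x hx => by
    obtain ⟨⟨⟨u, hu⟩, ⟨v, hv⟩⟩, e, -⟩ := hQ.existsUnique ⟨x, hx⟩
    refine ⟨u.1, hu, ?_⟩
    have e' : (u : Γ) * (v : Γ) = x := congrArg Subtype.val e
    rw [← e', QuotientGroup.mk_mul, (QuotientGroup.eq_one_iff (v : Γ)).2 (Subgroup.mem_map_of_mem K.subtype hv), mul_one]
  have hqker : ∀ z : Γ ⧸ N, z ∈ q.ker → ∃ u ∈ P, z = QuotientGroup.mk u := fun z hz => by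
    obtain ⟨x, rfl⟩ := QuotientGroup.mk_surjective z
    exact hkerP x (Subtype.ext hz)
  have hperf : commutator (Γ ⧸ N) = ⊤ := by
    rw [commutator_def, ← Subgroup.map_top_of_surjective (QuotientGroup.mk' N) (QuotientGroup.mk'_surjective N),
      ← Subgroup.map_commutator, ← commutator_def, perfect_of_min (by norm_num) hπ hmin]
  have hext : CfsgLib.AltCover.IsExt q := ⟨by
    refine le_antisymm (fun _ ⟨y, hy⟩ => hy ▸ (πb y).2) fun x hx => ?_
    obtain ⟨y, hy⟩ := hπ ⟨x, hx⟩
    exact ⟨QuotientGroup.mk y, congrArg Subtype.val hy⟩, fun z hz => by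
      obtain ⟨u, hu, rfl⟩ := hqker z hz
      refine Subgroup.mem_center_iff.2 fun g => ?_
      obtain ⟨g, rfl⟩ := QuotientGroup.mk_surjective g
      rw [← QuotientGroup.mk_mul, ← QuotientGroup.mk_mul, Subgroup.mem_center_iff.1 (hc hu)]⟩
  obtain ⟨δ, hδ, -, hle⟩ := CfsgLib.AltCover.ker_le_zpowers_klein (m := 10) (by norm_num) (Or.inr (by norm_num))
    hext (by rw [hperf]; exact le_top)
  refine (Subgroup.eq_bot_iff_forall _).2 fun u hu => ?_
  have hu' : (QuotientGroup.mk u : Γ ⧸ N) ∈ q.ker := by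
    rw [MonoidHom.mem_ker]
    exact congrArg Subtype.val (show π u = 1 from hPK hu)
  obtain ⟨i, hi⟩ := Subgroup.mem_zpowers_iff.1 (hle hu')
  have h2 : (QuotientGroup.mk u : Γ ⧸ N) ^ 2 = 1 := by
    rw [← hi, ← zpow_natCast, ← zpow_mul, mul_comm, zpow_mul, zpow_natCast, sq, hδ, one_zpow]
  have h5 : u ^ 5 ^ a = 1 := by
    have := congrArg Subtype.val (pow_card_eq_one' (x := (⟨u, hu⟩ : P)))
    rwa [ha] at this
  have h1 : (QuotientGroup.mk u : Γ ⧸ N) = 1 := eq_one_of_coprime
    (show Nat.Coprime 2 (5 ^ a) from Nat.Coprime.pow_right _ (by norm_num)) h2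
    (by rw [← QuotientGroup.mk_pow, h5, QuotientGroup.mk_one])
  obtain ⟨v, hv, hvu⟩ := (QuotientGroup.eq_one_iff u).1 h1
  have : v ∈ P.subgroupOf K ⊓ Q := ⟨by show K.subtype v ∈ P; rw [hvu]; exact hu, hv⟩
  rw [hQ.disjoint.eq_bot, Subgroup.mem_bot] at this
  rw [← hvu, this]
  rfl

/-- Lifting five-elements when five does not divide the kernel. -/
theorem lift_five (hπ : Function.Surjective π) (h5 : ¬ 5 ∣ Nat.card π.ker) {e : Alt 12} (he : orderOf e = 5) :
    ∃ g : Γ, π g = e ∧ g ^ 5 = 1 ∧ ∀ (x : Γ) (j : ℕ), π x * e * (π x)⁻¹ = e ^ j →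
      ∃ x', π x' = π x ∧ x' * g * x'⁻¹ = g ^ j := by
  classical
  haveI := Fact.mk Nat.prime_five
  obtain ⟨g₀, hg₀⟩ := hπ e
  set n := Nat.card π.ker
  have hco : Nat.Coprime n 5 := (Nat.prime_five.coprime_iff_not_dvd.2 h5).symm
  have he5 : e ^ 5 = 1 := by rw [← he, pow_orderOf_eq_one]
  obtain ⟨s, hs⟩ : ∃ s : ℕ, n * s ≡ 1 [MOD 5] := by
    obtain ⟨y, hy⟩ := Nat.exists_mul_mod_eq_one_of_coprime hco (by norm_num)
    exact ⟨y, by rw [Nat.ModEq, hy.2]⟩
  have hker : g₀ ^ 5 ∈ π.ker := by rw [MonoidHom.mem_ker, map_pow, hg₀, he5]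
  set g := g₀ ^ (n * s) with hg
  have hgπ : π g = e := by
    rw [hg, map_pow, hg₀]
    conv_rhs => rw [← pow_one e]
    rw [pow_eq_pow_iff_modEq, he]
    exact hs
  have hg5 : g ^ 5 = 1 := by
    have := congrArg Subtype.val (pow_card_eq_one' (x := (⟨_, hker⟩ : π.ker)))
    rw [Subgroup.coe_pow, Subgroup.coe_one] at this
    rw [hg, ← pow_mul, show n * s * 5 = 5 * n * s by ring, pow_mul, pow_mul, this, one_pow]
  refine ⟨g, hgπ, hg5, fun x j hx => ?_⟩
  set S := (Subgroup.zpowers e).comap π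
  have hgS : g ∈ S := by rw [Subgroup.mem_comap, hgπ]; exact Subgroup.mem_zpowers e
  have hcardg : Nat.card (Subgroup.zpowers (⟨g, hgS⟩ : S)) = 5 := by
    rw [Nat.card_zpowers]
    refine orderOf_eq_prime (Subtype.ext hg5) fun h => ?_
    have : e = 1 := by rw [← hgπ, show g = 1 from congrArg Subtype.val h, map_one]
    rw [this, orderOf_one] at he
    norm_num at he
  have hidx : ¬ 5 ∣ (Subgroup.zpowers (⟨g, hgS⟩ : S)).index := by
    let ν : S →* Subgroup.zpowers e := π.subgroupComap _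
    have hν : Function.Surjective ν := fun y => by
      obtain ⟨z, hz⟩ := hπ y.1
      exact ⟨⟨z, by rw [Subgroup.mem_comap, hz]; exact y.2⟩, Subtype.ext hz⟩
    have h1 : Nat.card ν.ker = n := Nat.card_congr
      { toFun := fun z => ⟨z.1.1, congrArg Subtype.val (show ν z.1 = 1 from z.2)⟩
        invFun := fun z => ⟨⟨z.1, by rw [Subgroup.mem_comap, show π z.1 = 1 from z.2]; exact one_mem _⟩,
          Subtype.ext (show π z.1 = 1 from z.2)⟩
        left_inv := fun z => rfl
        right_inv := fun z => rfl }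
    have h2 := (Subgroup.zpowers (⟨g, hgS⟩ : S)).card_mul_index
    rw [hcardg, ← ν.ker.card_mul_index, Subgroup.index_ker, h1, MonoidHom.range_eq_top.2 hν,
      Nat.card_congr Subgroup.topEquiv.toEquiv, Nat.card_zpowers, he, mul_comm n 5] at h2
    rw [Nat.eq_of_mul_eq_mul_left (by norm_num) h2]
    exact h5
  have hg' : (x * g * x⁻¹) ∈ S := by
    rw [Subgroup.mem_comap, map_mul, map_mul, map_inv, hgπ, hx]
    exact Subgroup.pow_mem _ (Subgroup.mem_zpowers e) _
  obtain ⟨w, hw⟩ := CfsgLib.F4AltSection.exists_conj_into _ hidx (P := Subgroup.zpowers (⟨_, hg'⟩ : S))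
    (IsPGroup.iff_card.2 (by
      obtain ⟨b, -, hb⟩ := (Nat.dvd_prime_pow Nat.prime_five (m := 1)).1 (show Nat.card (Subgroup.zpowers (⟨_, hg'⟩ : S)) ∣ 5 ^ 1 by
        rw [pow_one, Nat.card_zpowers]
        exact orderOf_dvd_of_pow_eq_one (Subtype.ext (by
          show (x * g * x⁻¹) ^ 5 = 1
          rw [conj_pow, hg5, mul_one, mul_inv_cancel])))
      exact ⟨b, hb⟩))
  obtain ⟨i, hi⟩ := Subgroup.mem_zpowers_iff.1 (hw _ (Subgroup.mem_zpowers _))
  obtain ⟨t, ht⟩ := Subgroup.mem_zpowers_iff.1 w.2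
  have hi' : (w : Γ) * (x * g * x⁻¹) * (w : Γ)⁻¹ = g ^ i := (congrArg Subtype.val hi).symm
  have hij : e ^ i = e ^ (j : ℤ) := by
    have := congrArg π hi'
    simp only [map_mul, map_inv, map_zpow, hgπ, hx] at this
    rw [← this, zpow_natCast, ← ht]
    rw [← zpow_natCast e j, ← zpow_add, ← zpow_neg, ← zpow_add]
    congr 1
    ring
  have hgi : g ^ i = g ^ j := by
    have hd := zpow_eq_zpow_iff_modEq.1 hij
    rw [he] at hd
    rw [← zpow_natCast]
    refine zpow_eq_zpow_iff_modEq.2 (Int.ModEq.of_dvd ?_ hd)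
    exact_mod_cast orderOf_dvd_of_pow_eq_one hg5
  refine ⟨g ^ (-t) * w * x, ?_, ?_⟩
  · rw [map_mul, map_mul, map_zpow, hgπ, ← ht, ← zpow_add, neg_add_cancel, zpow_zero, one_mul]
  · calc g ^ (-t) * w * x * g * (g ^ (-t) * w * x)⁻¹ = g ^ (-t) * (w * (x * g * x⁻¹) * (w : Γ)⁻¹) * (g ^ (-t))⁻¹ := by
          group
      _ = g ^ j := by rw [hi', hgi, ← zpow_natCast, ← zpow_add, ← zpow_neg, ← zpow_add]; congr 1; ring

end Group

section Cover

variable {F : Type} [Field F] [Fintype F]

theorem theta_mem_group (x : chevE6.SteinbergCover F) : θm F x ∈ chevE6.group F :=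
  ((coverProj sysE6 F x) : ↥(chevE6.group F)).2

/-- The kernel of a minimal covering has order prime to five. -/
theorem five_not_dvd_ker (hq : 5 ∣ Fintype.card F - 1) (Γ : Subgroup (chevE6.SteinbergCover F))
    [Finite Γ] (π : Γ →* Alt 12) (hπ : Function.Surjective π) (hmin : ∀ M : Subgroup Γ, M ≠ ⊤ → M.map π ≠ ⊤) :
    ¬ 5 ∣ Nat.card π.ker := by
  classical
  haveI := Fact.mk Nat.prime_five
  have hfr := map_ne_top_of_min hπ hmin
  haveI : Group.IsNilpotent (frattini Γ) := frattini_nilpotent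
  haveI hKnil : Group.IsNilpotent π.ker := nilpotent_of_mulEquiv (Subgroup.subgroupOfEquivOfLe hfr)
  obtain ⟨S⟩ : Nonempty (Sylow 5 π.ker) := Sylow.nonempty
  haveI hSn : (S : Subgroup π.ker).Normal := by
    have := (Group.isNilpotent_of_finite_tfae (G := π.ker)).out 0 3
    exact this.1 hKnil 5 ⟨Nat.prime_five⟩ S
  haveI : (S : Subgroup π.ker).Characteristic := S.characteristic_of_normal hSn
  set P := (S : Subgroup π.ker).map π.ker.subtype with hPdef
  haveI hPn : P.Normal := inferInstance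
  have hPp : IsPGroup 5 P := S.2.map _
  have hPK : P ≤ π.ker := Subgroup.map_subtype_le _
  intro hdvd
  have hPne : P ≠ ⊥ := by
    intro h
    have : (S : Subgroup π.ker) = ⊥ := (Subgroup.map_eq_bot_iff_of_injective _ π.ker.subtype_injective).1 h
    have h2 := S.not_dvd_index' (by exact Subgroup.index_ne_zero_of_finite)
    rw [this, Subgroup.index_bot] at h2
    exact h2 hdvd
  obtain ⟨M, ⟨hMn, hMP⟩, hMmax⟩ := exists_maximal_of_wellFoundedGT
    (fun M : Subgroup Γ => M.Normal ∧ M < P) ⟨⊥, inferInstance, bot_lt_iff_ne_bot.2 hPne⟩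
  haveI := hMn
  set mk := QuotientGroup.mk' M
  set A := P.map mk with hA
  haveI hAn : A.Normal := hPn.map mk (QuotientGroup.mk'_surjective M)
  have hAp : IsPGroup 5 A := hPp.map mk
  have hAne : A ≠ ⊥ := by
    intro h
    rw [hA, Subgroup.map_eq_bot_iff, QuotientGroup.ker_mk'] at h
    exact hMP.not_ge h
  have hminA : ∀ N : Subgroup (Γ ⧸ M), N.Normal → N ≤ A → N = ⊥ ∨ N = A := fun N hN hle => by
    by_contra hne
    push Not at hne
    have h1 : M ≤ N.comap mk := fun x hx => by
      rw [Subgroup.mem_comap, show mk x = 1 from (QuotientGroup.eq_one_iff x).2 hx]; exact one_mem N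
    have h2 : N.comap mk < P := by
      refine lt_of_le_of_ne (fun x hx => ?_) fun e => hne.2 ?_
      · obtain ⟨y, hy, hyx⟩ := hle hx
        have : y⁻¹ * x ∈ M := QuotientGroup.eq.1 hyx
        simpa using mul_mem hy (hMP.le this)
      · rw [hA, ← e, Subgroup.map_comap_eq_self_of_surjective (QuotientGroup.mk'_surjective M)]
    refine hne.1 ?_
    have h3 : N.comap mk ≤ M := hMmax ⟨hN.comap mk, h2⟩ h1
    rw [← Subgroup.map_comap_eq_self_of_surjective (QuotientGroup.mk'_surjective M) N, Subgroup.map_eq_bot_iff,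
      QuotientGroup.ker_mk']
    exact h3
  haveI : Nontrivial A := (Subgroup.nontrivial_iff_ne_bot _).2 hAne
  -- abelian
  have habel : ∀ a b : A, a * b = b * a := by
    haveI := hAp.center_nontrivial
    rcases hminA ((Subgroup.center A).map A.subtype) inferInstance (Subgroup.map_subtype_le _) with h | h
    · exact absurd ((Subgroup.map_eq_bot_iff_of_injective _ A.subtype_injective).1 h)
        ((Subgroup.nontrivial_iff_ne_bot _).1 inferInstance)
    · intro a b
      have ha2 : (a : Γ ⧸ M) ∈ _ := h.ge a.2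
      obtain ⟨z, hz, e⟩ := ha2
      have : z = a := Subtype.ext e
      rw [← this]
      exact (Subgroup.mem_center_iff.1 hz b).symm
  letI : CommGroup A := { (inferInstance : Group A) with mul_comm := habel }
  -- exponent five
  have hexp : ∀ a : A, a ^ 5 = 1 := by
    set R := (powMonoidHom 5 : A →* A).ker
    haveI : R.Characteristic := Subgroup.characteristic_iff_le_comap.2 fun φ x hx => by
      rw [Subgroup.mem_comap, MonoidHom.mem_ker, powMonoidHom_apply] at *
      show φ x ^ 5 = 1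
      rw [← map_pow, hx, map_one]
    rcases hminA (R.map A.subtype) inferInstance (Subgroup.map_subtype_le _) with h | h
    · exfalso
      obtain ⟨a, ha⟩ := IsPGroup.iff_card.1 hAp
      have h5 : 5 ∣ Nat.card A := by
        rcases a with _ | a
        · exact absurd (ha.trans (pow_zero 5)) (Finite.one_lt_card.ne')
        · rw [ha, pow_succ]; exact dvd_mul_left _ _
      obtain ⟨z, hz⟩ := exists_prime_orderOf_dvd_card' 5 h5
      have hzR : (z : Γ ⧸ M) ∈ R.map A.subtype := ⟨z, by
        rw [SetLike.mem_coe, MonoidHom.mem_ker, powMonoidHom_apply, ← hz, pow_orderOf_eq_one], rfl⟩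
      rw [h, Subgroup.mem_bot] at hzR
      rw [show z = 1 from Subtype.ext hzR, orderOf_one] at hz
      norm_num at hz
    · intro a
      have ha2 : (a : Γ ⧸ M) ∈ _ := h.ge a.2
      obtain ⟨z, hz, e⟩ := ha2
      rw [← show z = a from Subtype.ext e]
      exact hz
  let ψ : Γ →* Monoid.End A :=
    { toFun := fun g => (MulAut.conjNormal (mk g) : MulAut A).toMonoidHom
      map_one' := by rw [map_one, map_one]; rfl
      map_mul' := fun g g' => by rw [map_mul, map_mul]; rfl }
  by_cases hcent : A ≤ Subgroup.center (Γ ⧸ M)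
  · -- a central quotient is impossible
    have hKm : M ≤ π.ker := hMP.le.trans hPK
    set πM : Γ ⧸ M →* Alt 12 := QuotientGroup.lift M π hKm
    have hπM : Function.Surjective πM := fun y => by
      obtain ⟨x, hx⟩ := hπ y; exact ⟨QuotientGroup.mk x, hx⟩
    have hminM : ∀ N : Subgroup (Γ ⧸ M), N ≠ ⊤ → N.map πM ≠ ⊤ := fun N hN htop => by
      refine hmin (N.comap mk) (fun h => hN ?_) ?_
      · rw [← Subgroup.map_comap_eq_self_of_surjective (QuotientGroup.mk'_surjective M) N, h,
          Subgroup.map_top_of_surjective _ (QuotientGroup.mk'_surjective M)]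
      · rw [eq_top_iff, ← htop]
        rintro _ ⟨y, hy, rfl⟩
        obtain ⟨x, rfl⟩ := QuotientGroup.mk'_surjective M y
        exact ⟨x, hy, rfl⟩
    have hAK : A ≤ πM.ker := by
      rintro _ ⟨y, hy, rfl⟩
      exact hPK hy
    refine hAne (central_five_eq_bot hπM hminM A hAK hAp ?_ hcent)
    have hS := S.not_dvd_index' (by exact Subgroup.index_ne_zero_of_finite)
    let res : π.ker →* πM.ker := (mk.comp π.ker.subtype).codRestrict πM.ker fun x => x.2
    have hres : Function.Surjective res := fun y => by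
      obtain ⟨x, hx⟩ := QuotientGroup.mk'_surjective M y.1
      have hx' : π x = 1 := by
        have := y.2
        rw [MonoidHom.mem_ker, ← hx] at this
        exact this
      exact ⟨⟨x, hx'⟩, Subtype.ext hx⟩
    have hsub : (S : Subgroup π.ker).map res ≤ A.subgroupOf πM.ker := by
      rintro _ ⟨x, hx, rfl⟩
      rw [Subgroup.mem_subgroupOf]
      exact ⟨x, ⟨x, hx, rfl⟩, rfl⟩
    exact fun h => hS ((h.trans (Subgroup.index_dvd_of_le hsub)).trans (Subgroup.index_map_dvd _ hres))
  · -- a faithful action needs a large module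
    have hψ : ∀ g, ψ g = 1 → π g = 1 := by
      rcases normal_eq_top_or_le (by norm_num) hπ hmin ψ.ker with htop | h
      · refine absurd (fun a ha => Subgroup.mem_center_iff.2 fun y => ?_) hcent
        obtain ⟨g, rfl⟩ := QuotientGroup.mk'_surjective M y
        have h1 := DFunLike.congr_fun (htop ▸ Subgroup.mem_top g : g ∈ ψ.ker) (⟨a, ha⟩ : A)
        have h2 : mk g * a * (mk g)⁻¹ = a := congrArg Subtype.val h1
        exact mul_inv_eq_iff_eq_mul.1 h2
      · exact fun g hg => h hg
    obtain ⟨d, τ, hd, hτ⟩ := exists_matrix_rep 5 hexp ψ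
    let j : P →* ↥(chevE6.group F) :=
      ((θm F).codRestrict _ theta_mem_group).comp (Γ.subtype.comp P.subtype)
    have hj : Function.Injective j := (injective_iff_map_eq_one j).2 fun z hz => by
      haveI : Finite F := inferInstance
      have h3 : (z.1.1 : chevE6.SteinbergCover F) ^ 3 = 1 :=
        ker_theta (congrArg Subtype.val hz)
      obtain ⟨b, hb⟩ := hPp z
      refine Subtype.ext (Subtype.ext (eq_one_of_coprime (a := 3) (b := 5 ^ b)
        (Nat.Coprime.pow_right _ (by norm_num)) h3 ?_))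
      exact congrArg (fun y : P => (y.1.1 : chevE6.SteinbergCover F)) hb
    let f : P →* A := (mk.comp P.subtype).codRestrict A fun x => ⟨x, x.2, rfl⟩
    have hfs : Function.Surjective f := fun y => by
      obtain ⟨x, hx, hxy⟩ := y.2
      exact ⟨⟨x, hx⟩, Subtype.ext hxy⟩
    have hb := five_bound hq j hj hPp f hfs hexp
    rw [hd] at hb
    have hd7 : d ≤ 7 := (Nat.pow_le_pow_iff_right (by norm_num)).1 hb
    let τ' : Representation (Kp 5) Γ (Fin d → Kp 5) :=
      ((Matrix.toLinAlgEquiv' (R := Kp 5) (n := Fin d)).toMonoidHom).comp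
        (((algebraMap (ZMod 5) (Kp 5)).mapMatrix : Matrix (Fin d) (Fin d) (ZMod 5) →+* Matrix (Fin d) (Fin d) (Kp 5)).toMonoidHom.comp τ)
    have h11 := alt_section_bound 12 (by norm_num) d 5 (Fin d → Kp 5) (Module.finrank_fin_fun _) Γ τ' π hπ
      (fun g hg => hψ g (hτ g (by
        have h1 := (Matrix.toLinAlgEquiv' (R := Kp 5) (n := Fin d)).injective (hg.trans (map_one _).symm)
        exact Matrix.map_injective (algebraMap (ZMod 5) (Kp 5)).injective (h1.trans (map_one
          ((algebraMap (ZMod 5) (Kp 5)).mapMatrix : Matrix (Fin d) (Fin d) (ZMod 5) →+* _)).symm))))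
    rw [show altBound 12 5 = 11 from rfl] at h11
    omega

end Cover

end CfsgLib.E6AltSection
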