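import Cfsg.Agent.E6AltSection.Twelve
import Cfsg.Agent.ChevField.Map
import Mathlib.FieldTheory.Finite.Extension

/-!
The degree of an alternating section of the Chevalley groups of type E₆.
-/

set_option autoImplicit false
set_option linter.unusedSectionVars false
set_option linter.style.haveILetI false

namespace CfsgLib.E6AltSection

open CfsgLib.Chevalley Cfsg.Lie CfsgLib.AltLinear

universe u

theorem exists_baseChange {F : Type u} [Field F] [Fintype F] (p : ℕ) [Fact p.Prime] [CharP F p]
    (n : ℕ) [NeZero n] :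
    ∃ (E : Type) (_ : Field E) (_ : Fintype E) (_ : CharP E p) (f : ↥(chevE6.group F) →* ↥(chevE6.group E)),
      Function.Injective f ∧ Fintype.card E = Fintype.card F ^ n := by
  haveI : Module.Finite F (FiniteField.Extension F p n) := Module.Finite.of_finite
  let E := FiniteField.Extension F p n
  haveI : Fintype E := Fintype.ofFinite E
  let ι : F →+* E := algebraMap F E
  refine ⟨E, inferInstance, inferInstance, charP_of_injective_ringHom ι.injective p,
    ((CfsgLib.ChevField.gmap chevE6 ι).comp (chevE6.group F).subtype).codRestrict _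
      fun g => CfsgLib.ChevField.gmap_mem sysE6 ι g.2, fun a b h => ?_, ?_⟩
  · exact Subtype.ext (CfsgLib.ChevField.gmap_injective ι (congrArg Subtype.val h))
  · rw [← Nat.card_eq_fintype_card (α := E), Module.natCard_eq_pow_finrank (K := F),
      FiniteField.finrank_extension F p n, Nat.card_eq_fintype_card]

theorem dvd_pow_card_sub_one {F : Type u} [Field F] [Fintype F] {p ℓ k : ℕ} [Fact p.Prime]
    [CharP F p] (hℓ : ℓ.Prime) (hne : p ≠ ℓ) (hk : ℓ - 1 ∣ k) :
    ℓ ∣ Fintype.card F ^ k - 1 := by
  obtain ⟨a, -, ha⟩ := FiniteField.card F p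
  have hco : Nat.Coprime (Fintype.card F) ℓ := by
    rw [ha]
    exact Nat.Coprime.pow_left _ ((Nat.coprime_primes (Fact.out) hℓ).mpr hne)
  obtain ⟨c, rfl⟩ := hk
  refine (Nat.modEq_iff_dvd' (Nat.one_le_pow _ _ Fintype.card_pos)).mp ?_
  have h := (Nat.ModEq.pow_card_sub_one_eq_one hℓ hco).pow c
  rw [one_pow, ← pow_mul] at h
  exact h.symm

/-- The bound, for any group mapped injectively into the Chevalley group. -/
theorem degree_bound {F : Type u} [Field F] [Fintype F] (p : ℕ) [Fact p.Prime] [CharP F p] (r : ℕ)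
    {G : Type*} [Group G] (i : G →* ↥(chevE6.group F)) (hi : Function.Injective i) (H : Subgroup G)
    (K : Subgroup H) [K.Normal] (h : Nonempty (H ⧸ K ≃* Alt r)) :
    r ≤ 11 + (if p = 2 ∨ p = 3 ∨ p = 5 then 1 else 0) := by
  classical
  by_contra hr
  rw [Nat.not_le] at hr
  obtain ⟨E, _, _, _, f, hf, hE⟩ := exists_baseChange (F := F) p 20
  have hfi : Function.Injective (f.comp i) := hf.comp hi
  have hF : 65 ≤ Fintype.card E := by
    rw [hE]
    calc 65 ≤ 2 ^ 20 := by norm_num
      _ ≤ Fintype.card F ^ 20 := Nat.pow_le_pow_left Fintype.one_lt_card 20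
  by_cases hp : p = 2 ∨ p = 3 ∨ p = 5
  · rw [if_pos hp] at hr
    obtain ⟨e⟩ := h
    obtain ⟨s, c, hs, hc⟩ := exists_eleven_sq (r := r) (by omega)
    have hne : p ≠ 11 := by omega
    exact no_eleven hne (hE ▸ dvd_pow_card_sub_one (p := p) (by norm_num) hne (by norm_num))
      ((f.comp i).comp H.subtype) (hfi.comp H.subtype_injective) (e.toMonoidHom.comp (QuotientGroup.mk' K))
      (e.surjective.comp (QuotientGroup.mk'_surjective K)) hs hc
  · rw [if_neg hp] at hr
    obtain ⟨H₀, φ, hφ⟩ := CfsgLib.AltExc.exists_smaller (m := 12) (by omega) H K h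
    have hp7 : 7 ≤ p := by
      have hp' : p.Prime := Fact.out
      have := hp'.two_le
      by_contra hlt
      have hne : p ≠ 4 ∧ p ≠ 6 := ⟨fun e => by subst e; norm_num at hp', fun e => by subst e; norm_num at hp'⟩
      omega
    let e := H₀.equivMapOfInjective (f.comp i) hfi
    exact no_twelve hp7 (hE ▸ dvd_pow_card_sub_one (p := p) (by norm_num) (show p ≠ 5 by omega) (by norm_num)) hF
      (H₀.map (f.comp i)) (φ.comp e.symm.toMonoidHom) (hφ.comp e.symm.surjective)

end CfsgLib.E6AltSection
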