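import Cfsg.Agent.AltLinear.Reduction
import Cfsg.Agent.E6AltSection.Eigen

/-!
A five-element with a large centraliser acting on weights: either seven fixed weights and one moved
orbit, or seven moved orbits.
-/

set_option autoImplicit false
set_option linter.unusedSectionVars false
set_option linter.style.haveILetI false

namespace CfsgLib.E6AltSection

open Module Equiv CfsgLib.AltLinear

/-- Five letters. -/
def five : Fin 5 ↪ Fin 12 := mkEmb ![0, 1, 2, 3, 4] (by decide)

/-- The seven other letters. -/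
def seven : Fin 7 ↪ Fin 12 := mkEmb ![5, 6, 7, 8, 9, 10, 11] (by decide)

/-- A lift of the five-cycle whose centraliser covers the complementary alternating group. -/
structure FiveData {Γ : Type} [Group Γ] (π : Γ →* Alt 12) (g : Γ) : Prop where
  image : π g = em five c5
  pow : g ^ 5 = 1
  lift : ∀ y : Alt 7, ∃ x : Γ, π x = em seven y ∧ x * g = g * x

theorem FiveData.ne {Γ : Type} [Group Γ] {π : Γ →* Alt 12} {g : Γ} (h : FiveData π g) : π g ≠ 1 := by
  rw [h.image]; exact em_ne_one five c5_ne_one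

theorem fix_of_zpow {S : Type*} {z : Perm S} (h5 : z ^ 5 = 1) {n : ℤ} {s : S} (hs : (z ^ n) s = s)
    (hn : ¬ (5 : ℤ) ∣ n) : z s = s := by
  have hcop : IsCoprime n (5 : ℤ) := (Int.prime_iff_natAbs_prime.2 (by norm_num)).coprime_iff_not_dvd.2 hn |>.symm
  obtain ⟨a, b, hab⟩ := hcop
  have hz : z = (z ^ n) ^ a := by
    conv_lhs => rw [← zpow_one z, ← hab, zpow_add, mul_comm a n, zpow_mul, mul_comm b 5, zpow_mul,
      show z ^ (5 : ℤ) = 1 from h5, one_zpow, mul_one]
  have hmem : z ^ n ∈ MulAction.stabilizer (Perm S) s := hs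
  have := zpow_mem hmem a
  rw [← hz] at this
  exact this

variable {Γ : Type} [Group Γ] [Finite Γ] {π : Γ →* Alt 12} {g : Γ}

/-- Seven images of one point, pairwise in distinct cycles. -/
theorem seven_cycles (hd : FiveData π g) {S : Type} (act : Γ →* Perm S) (hker : act.ker ≤ π.ker) :
    ∃ (s : S) (x : Fin 7 → Γ), (∀ i, x i * g = g * x i) ∧
      ∀ i j, i ≠ j → ∀ n : ℤ, act (x i) s ≠ (act g ^ n) (act (x j) s) := by
  classical
  set L0 : Subgroup Γ := Subgroup.centralizer {g} ⊓ Spin.sub π seven with hL0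
  obtain ⟨L, ⟨hL, hLmap⟩, hLmin⟩ := exists_minimal_of_wellFoundedLT
    (fun M : Subgroup Γ => M ≤ L0 ∧ ∀ y : Alt 7, ∃ x ∈ M, π x = em seven y)
    ⟨L0, le_rfl, fun y => by
      obtain ⟨x, hx, hxg⟩ := hd.lift y
      exact ⟨x, ⟨Subgroup.mem_centralizer_singleton_iff.2 hxg, ⟨y, hx.symm⟩⟩, hx⟩⟩
  let φ : L →* Alt 7 := (Spin.subHom π seven).comp (Subgroup.inclusion (hL.trans inf_le_right))
  have hφe : ∀ l : L, em seven (φ l) = π l := fun l => Spin.em_subHom π seven _
  have hφ : Function.Surjective φ := fun y => by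
    obtain ⟨x, hx, hxy⟩ := hLmap y
    exact ⟨⟨x, hx⟩, em_injective seven ((hφe _).trans hxy)⟩
  have hmin : ∀ M : Subgroup L, M ≠ ⊤ → M.map φ ≠ ⊤ := fun M hM htop => hM (eq_top_iff.2 fun l _ => by
    have h1 := hLmin (y := M.map L.subtype) ⟨(Subgroup.map_subtype_le M).trans hL, fun y => by
      obtain ⟨l, hl, rfl⟩ := (htop ▸ Subgroup.mem_top y : y ∈ M.map φ)
      exact ⟨l, Subgroup.mem_map_of_mem _ hl, (hφe l).symm⟩⟩ (Subgroup.map_subtype_le M)
    exact (Subgroup.mem_map_iff_mem L.subtype_injective).1 (h1 l.2))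
  have hperf := perfect_of_min (by norm_num) hφ hmin
  have hcomm : ∀ l : L, Commute (act l.1) (act g) := fun l =>
    (Commute.map (Subgroup.mem_centralizer_singleton_iff.1 (hL l.2).1) act)
  let St : S → Subgroup L := fun s =>
    { carrier := {l | ∃ n : ℤ, act l.1 s = (act g ^ n) s}
      one_mem' := ⟨0, by simp⟩
      mul_mem' := fun {l l'} ⟨a, ha⟩ ⟨b, hb⟩ => ⟨b + a, by
        rw [Subgroup.coe_mul, map_mul, Perm.mul_apply, hb]
        show (act l.1 * act g ^ b) s = _
        rw [((hcomm l).zpow_right b).eq, Perm.mul_apply, ha, ← Perm.mul_apply, ← zpow_add]⟩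
      inv_mem' := fun {l} ⟨a, ha⟩ => ⟨-a, by
        rw [Subgroup.coe_inv, map_inv]
        refine (act l.1).injective ?_
        rw [Perm.coe_inv, Equiv.apply_symm_apply, ← Perm.mul_apply, ((hcomm l).zpow_right _).eq, Perm.mul_apply, ha,
          ← Perm.mul_apply, ← zpow_add, neg_add_cancel, zpow_zero, Perm.one_apply]⟩ }
  obtain ⟨s, hs⟩ : ∃ s, St s ≠ ⊤ := by
    by_contra hall
    push Not at hall
    have hab : ∀ a b : (act.comp L.subtype).range, a * b = b * a := by
      rintro ⟨_, l, rfl⟩ ⟨_, l', rfl⟩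
      refine Subtype.ext (Equiv.ext fun s => ?_)
      obtain ⟨a, ha⟩ : ∃ n : ℤ, act l.1 s = (act g ^ n) s := (hall s).ge (Subgroup.mem_top l)
      obtain ⟨b, hb⟩ : ∃ n : ℤ, act l'.1 s = (act g ^ n) s := (hall s).ge (Subgroup.mem_top l')
      show act l.1 (act l'.1 s) = act l'.1 (act l.1 s)
      rw [ha, hb]
      show (act l.1 * act g ^ b) s = (act l'.1 * act g ^ a) s
      rw [((hcomm l).zpow_right b).eq, ((hcomm l').zpow_right a).eq, Perm.mul_apply, Perm.mul_apply, ha, hb,
        ← Perm.mul_apply, ← Perm.mul_apply, ← zpow_add, ← zpow_add, add_comm]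
    obtain ⟨x, hx, hxy⟩ := hLmap (em (Fin.castLEEmb (by norm_num : 3 ≤ 7)) c3)
    have h1 := congrArg Subtype.val (hom_comm_eq_one hperf hab (act.comp L.subtype).rangeRestrict ⟨x, hx⟩)
    have h2 : π x = 1 := hker h1
    rw [h2] at hxy
    exact em_ne_one seven (em_ne_one _ c3_ne_one) hxy.symm
  have hidx : 7 ≤ (St s).index := by
    by_contra hlt
    haveI : Fintype (L ⧸ St s) := Fintype.ofFinite _
    set f := MulAction.toPermHom L (L ⧸ St s) with hf
    rcases normal_eq_top_or_le (by norm_num) hφ hmin f.ker with htop | hle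
    · refine hs (eq_top_iff.2 ?_)
      rw [← htop, hf, ← Subgroup.normalCore_eq_ker]
      exact (St s).normalCore_le
    · have hsurj : Nat.card (Alt 7) ≤ Nat.card f.range := by
        let ψ := f.rangeRestrict.liftOfSurjective f.rangeRestrict_surjective
          ⟨φ, fun l hl => hle (show f l = 1 from congrArg Subtype.val hl)⟩
        refine Nat.card_le_card_of_surjective ψ fun y => ?_
        obtain ⟨l, rfl⟩ := hφ y
        exact ⟨f.rangeRestrict l, MonoidHom.liftOfRightInverse_comp_apply _ _ _ _ l⟩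
      have h1 := (hsurj.trans (Subgroup.card_le_card_group _)).trans Nat.card_perm.le
      have h2 : (Nat.card (L ⧸ St s)).factorial ≤ Nat.factorial 6 :=
        Nat.factorial_le (by rw [← Subgroup.index_eq_card]; omega)
      have h3 := card_alt (r := 7) (by norm_num)
      rw [show Nat.factorial 7 = 7 * Nat.factorial 6 from rfl] at h3
      have h4 : 0 < Nat.factorial 6 := Nat.factorial_pos 6
      omega
  haveI : Fintype (L ⧸ St s) := Fintype.ofFinite _
  obtain ⟨ι⟩ : Nonempty (Fin 7 ↪ L ⧸ St s) := Function.Embedding.nonempty_of_card_le (by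
    rw [Fintype.card_fin, ← Nat.card_eq_fintype_card, ← Subgroup.index_eq_card]
    exact hidx)
  refine ⟨s, fun i => ((ι i).out : L).1, fun i => Subgroup.mem_centralizer_singleton_iff.1 (hL (ι i).out.2).1,
    fun i j hij n hn => hij (ι.injective ?_)⟩
  rw [← QuotientGroup.out_eq' (ι i), ← QuotientGroup.out_eq' (ι j)]
  refine (QuotientGroup.eq.2 ?_).symm
  refine ⟨n, ?_⟩
  rw [Subgroup.coe_mul, Subgroup.coe_inv, map_mul, map_inv, Perm.mul_apply]
  refine (act ((ι j).out : L).1).injective ?_
  rw [Perm.coe_inv, Equiv.apply_symm_apply, ← Perm.mul_apply, ((hcomm _).zpow_right n).eq, Perm.mul_apply, hn]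

section Indep

variable {k : Type*} [Field k] {V : Type*} [AddCommGroup V] [Module k V] [FiniteDimensional k V]

/-- Weight vectors with distinct weights are independent. -/
theorem weights_indep {ι ι' : Type*} [Fintype ι'] (T : ι → End k V) (hc : ∀ i j, Commute (T i) (T j))
    (χ : ι' → ι → k) (hχ : Function.Injective χ) (v : ι' → V) (hv0 : ∀ a, v a ≠ 0)
    (hv : ∀ a i, T i (v a) = χ a i • v a) : LinearIndependent k v := by
  have hind := Module.End.independent_iInf_maxGenEigenspace_of_forall_mapsTo T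
    fun i j φ => Module.End.mapsTo_maxGenEigenspace_of_comm (hc j i) φ
  refine iSupIndep.linearIndependent _ (hind.comp hχ) (fun a => ?_) hv0
  simp only [Function.comp_apply, Submodule.mem_iInf]
  exact fun i => (Module.End.eigenspace_le_maxGenEigenspace (f := T i) (μ := χ a i))
    (Module.End.mem_eigenspace_iff.2 (hv a i))

end Indep

end CfsgLib.E6AltSection
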