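import Cfsg.Agent.E6AltSection.Lift
import Cfsg.Agent.E6AltSection.Spectra
import Cfsg.Agent.ChevSteinberg.Universal
import Cfsg.Agent.F4AltSection.Alternating

/-!
The twenty-seven dimensional representation of the Steinberg cover of type E₆ over an algebraically closed
field: spectra of elements of order five that are conjugate to their squares, and the exclusion of
elements of order eleven with this property.
-/

set_option autoImplicit false
set_option linter.unusedSectionVars false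
set_option linter.style.haveILetI false

namespace CfsgLib.E6AltSection

open Module Cfsg.Lie CfsgLib.Chevalley CfsgLib.ChevSteinberg CfsgLib.ChevE6Cubic CfsgLib.AltLinear
open scoped Matrix

variable {F : Type} [Field F] [Fintype F]

local notation "Cov" => chevE6.SteinbergCover F

theorem exists_theta {g : GL chevE6.Idx F} (hg : g ∈ chevE6.group F) : ∃ x : Cov, θm F x = g := by
  rw [← coverSys_range (S := sysE6)] at hg
  obtain ⟨x, hx⟩ := hg
  exact ⟨x, hx⟩

/-- A finite field embeds into the algebraic closure of its prime field. -/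
theorem exists_iota (p : ℕ) [Fact p.Prime] [CharP F p] : Nonempty (F →+* Kp p) := by
  letI : Algebra (ZMod p) F := ZMod.algebra F p
  haveI : Module.Finite (ZMod p) F := Module.Finite.of_finite
  haveI : Algebra.IsAlgebraic (ZMod p) F := Algebra.IsAlgebraic.of_finite (ZMod p) F
  exact ⟨(IsAlgClosed.lift : F →ₐ[ZMod p] Kp p).toRingHom⟩

section

variable {k : Type} [Field k]

/-- The representation on twenty-seven coordinates over an extension field. -/
noncomputable def rep (ι : F →+* k) : Representation k Cov (I27 → k) :=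
  ((Matrix.toLinAlgEquiv' (R := k) (n := I27)).toMonoidHom).comp
    ((ι.mapMatrix : Matrix I27 I27 F →+* Matrix I27 I27 k).toMonoidHom.comp ((Units.coeHom _).comp (ξ F)))

theorem rep_apply (ι : F →+* k) (x : Cov) :
    rep ι x = Matrix.toLinAlgEquiv' ((ξ F x : Matrix I27 I27 F).map ι) := rfl

theorem MonoShape.map {M : Matrix I27 I27 F} {π : Equiv.Perm I27} {c : I27 → F} (h : MonoShape M π c)
    (ι : F →+* k) : MonoShape (M.map ι) π (fun a => ι (c a)) :=
  ⟨fun a b => by rw [Matrix.map_apply, h.1, apply_ite ι, map_zero],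
    fun b => (map_ne_zero ι).2 (h.2 b)⟩

theorem map_xi_mul (ι : F →+* k) (x y : Cov) :
    ((ξ F x : Matrix I27 I27 F).map ι) * ((ξ F y : Matrix I27 I27 F).map ι) =
      (ξ F (x * y) : Matrix I27 I27 F).map ι := by
  rw [map_mul, Units.val_mul, Matrix.map_mul]

theorem map_xi_one (ι : F →+* k) : (ξ F 1 : Matrix I27 I27 F).map ι = 1 := by
  rw [map_one, Units.val_one, Matrix.map_one ι (map_zero ι) (map_one ι)]

theorem map_xi_pow (ι : F →+* k) (x : Cov) (n : ℕ) :
    ((ξ F x : Matrix I27 I27 F).map ι) ^ n = (ξ F (x ^ n) : Matrix I27 I27 F).map ι := by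
  induction n with
  | zero => rw [pow_zero, pow_zero, map_xi_one]
  | succ n ih => rw [pow_succ, pow_succ, ih, map_xi_mul]

end

/-- The spectrum of an element of order five conjugate to its square. -/
theorem spectral_five {p : ℕ} [Fact p.Prime] (hp : p ≠ 5) (hq : 5 ∣ Fintype.card F - 1)
    (hF : 65 ≤ Fintype.card F) (ι : F →+* Kp p) {g y : Cov} (hg : g ^ 5 = 1) (hne : θm F g ≠ 1)
    (hy : y * g * y⁻¹ = g ^ 2) :
    edim (rep ι g) 1 = 7 ∧ ∀ μ : Kp p, μ ^ 5 = 1 → μ ≠ 1 → edim (rep ι g) μ = 5 := by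
  classical
  haveI := Fact.mk Nat.prime_five
  have h5 : ((5 : ℕ) : Kp p) ≠ 0 := fun h => hp ((Nat.prime_dvd_prime_iff_eq Fact.out Nat.prime_five).1
    ((CharP.cast_eq_zero_iff (Kp p) p 5).1 h))
  haveI : NeZero ((5 : ℕ) : Kp p) := ⟨h5⟩
  obtain ⟨ζ, hζ⟩ := (HasEnoughRootsOfUnity.exists_primitiveRoot (Kp p) 5)
  set g₀ : ↥(chevE6.group F) := ⟨θm F g, theta_mem_group g⟩ with hg₀
  have hg₀5 : g₀ ^ 5 = 1 := Subtype.ext (by
    show θm F g ^ 5 = 1
    rw [← map_pow, hg, map_one])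
  obtain ⟨a, ha⟩ := exists_monomial_five hq (P := Subgroup.zpowers g₀) (IsPGroup.iff_card.2 (by
    obtain ⟨b, -, hb⟩ := (Nat.dvd_prime_pow Nat.prime_five (m := 1)).1
      (show Nat.card (Subgroup.zpowers g₀) ∣ 5 ^ 1 by
        rw [pow_one, Nat.card_zpowers]
        exact orderOf_dvd_of_pow_eq_one hg₀5)
    exact ⟨b, hb⟩))
  obtain ⟨A, hA⟩ := exists_theta a.2
  set g₁ := A * g * A⁻¹ with hg₁
  have hg₁mon : θm F g₁ ∈ chevE6.monomialSubgroup F := by
    have := ha g₀ (Subgroup.mem_zpowers _)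
    simpa [hg₁, hA, hg₀] using this
  obtain ⟨π, c, hshape, hpres, hdiag⟩ := over_monomial (Nat.card_eq_fintype_card (α := F) ▸ hF) hg₁mon
  have hg₁5 : g₁ ^ 5 = 1 := by rw [hg₁, conj_pow, hg, mul_one, mul_inv_cancel]
  have hξne : ξ F g₁ ≠ 1 := fun h => by
    have hπ : π = 1 := by
      rw [h, Units.val_one] at hshape
      exact hshape.unique MonoShape.one
    obtain ⟨d, hd⟩ := over_diagonal (hdiag hπ).1
    have hd1 : d = 1 := xi_tc_injective (by
      show ξ F (tc F d) = ξ F (tc F 1)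
      rw [hd, h, map_one, map_one])
    refine hne ?_
    have : θm F g₁ = 1 := by rw [← hd, hd1, map_one, map_one]
    rwa [hg₁, map_mul, map_mul, map_inv, mul_inv_eq_one, mul_eq_left] at this
  set M := (ξ F g₁ : Matrix I27 I27 F).map ι with hM
  have hM5 : M ^ 5 = 1 := by rw [hM, map_xi_pow, hg₁5, map_xi_one]
  have hMne : M ≠ 1 := fun h => hξne (Units.ext (by
    refine Matrix.map_injective ι.injective ?_
    show M = (1 : Matrix I27 I27 F).map ι
    rw [h, Matrix.map_one ι (map_zero ι) (map_one ι)]))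
  set y₁ := A * y * A⁻¹
  have hy₁ : y₁ * g₁ * y₁⁻¹ = g₁ ^ 2 := by
    rw [hg₁, conj_pow, ← hy]; simp only [y₁]; group
  obtain ⟨h1, h2⟩ := spectrum_five (k := Kp p) (by exact_mod_cast h5) hζ (hshape.map ι) hM5 hMne hpres
    (fun hπ m hm => by rw [← map_mul, ← map_mul, (hdiag hπ).2 m hm, map_one])
    (X := (ξ F y₁ : Matrix I27 I27 F).map ι) (X' := (ξ F y₁⁻¹ : Matrix I27 I27 F).map ι)
    (by rw [map_xi_mul, inv_mul_cancel, map_xi_one]) (by rw [map_xi_mul, mul_inv_cancel, map_xi_one])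
    (by rw [map_xi_mul, map_xi_mul, hy₁, map_xi_pow])
  have hconj : ∀ μ, mdim M μ = edim (rep ι g) μ := fun μ => by
    have e : rep ι g₁ = rep ι A * rep ι g * rep ι A⁻¹ := by rw [hg₁, map_mul, map_mul]
    show edim (rep ι g₁) μ = _
    rw [e]
    exact edim_conj _ _ _ (by rw [← map_mul, inv_mul_cancel, map_one]) (by rw [← map_mul, mul_inv_cancel, map_one]) μ
  exact ⟨(hconj 1).symm.trans h1, fun μ hμ hμ1 => (hconj μ).symm.trans (h2 μ hμ hμ1)⟩

/-- Elements of order eleven conjugate to their squares in the alternating group of degree thirteen. -/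
theorem exists_eleven_sq {r : ℕ} (hr : 13 ≤ r) :
    ∃ s c : ↥(alternatingGroup (Fin r)), orderOf s = 11 ∧ c * s * c⁻¹ = s ^ 2 := by
  haveI : Fact (Nat.Prime 11) := ⟨by norm_num⟩
  let s₀ : Equiv.Perm (Fin 13) := ⟨![1, 2, 3, 4, 5, 6, 7, 8, 9, 10, 0, 11, 12],
    ![10, 0, 1, 2, 3, 4, 5, 6, 7, 8, 9, 11, 12], by decide, by decide⟩
  let c₀ : Equiv.Perm (Fin 13) := ⟨![0, 2, 4, 6, 8, 10, 1, 3, 5, 7, 9, 12, 11],
    ![0, 6, 1, 7, 2, 8, 3, 9, 4, 10, 5, 12, 11], by decide, by decide⟩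
  have h : Equiv.Perm.sign s₀ = 1 ∧ Equiv.Perm.sign c₀ = 1 ∧ c₀ * s₀ * c₀⁻¹ = s₀ ^ 2 ∧
      s₀ ^ 11 = 1 ∧ s₀ ≠ 1 := by decide +kernel
  obtain ⟨h1, h2, h3, h4, h5⟩ := h
  obtain ⟨φ, hφ⟩ := CfsgLib.F4AltSection.exists_altHom hr
  let s : ↥(alternatingGroup (Fin 13)) := ⟨s₀, Equiv.Perm.mem_alternatingGroup.mpr h1⟩
  let c : ↥(alternatingGroup (Fin 13)) := ⟨c₀, Equiv.Perm.mem_alternatingGroup.mpr h2⟩
  refine ⟨φ s, φ c, ?_, ?_⟩
  · rw [orderOf_injective φ hφ, ← Subgroup.orderOf_coe]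
    exact orderOf_eq_prime h4 h5
  · rw [← map_inv, ← map_mul, ← map_mul, ← map_pow]
    exact congrArg φ (Subtype.ext h3)

/-- No alternating section with an element of order eleven conjugate to its square. -/
theorem no_eleven {p : ℕ} [Fact p.Prime] [CharP F p] (hp : p ≠ 11) (hq : 11 ∣ Fintype.card F - 1)
    {H Q : Type*} [Group H] [Group Q] (f : H →* ↥(chevE6.group F)) (hf : Function.Injective f) (π : H →* Q)
    (hπ : Function.Surjective π) {s c : Q} (hs : orderOf s = 11) (hc : c * s * c⁻¹ = s ^ 2) : False := by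
  classical
  haveI : Fact (Nat.Prime 11) := ⟨by norm_num⟩
  obtain ⟨ι⟩ := exists_iota (F := F) p
  have h11 : ((11 : ℕ) : Kp p) ≠ 0 := fun h => hp ((Nat.prime_dvd_prime_iff_eq Fact.out (by norm_num)).1
    ((CharP.cast_eq_zero_iff (Kp p) p 11).1 h))
  haveI : NeZero ((11 : ℕ) : Kp p) := ⟨h11⟩
  obtain ⟨ζ, hζ⟩ := (HasEnoughRootsOfUnity.exists_primitiveRoot (Kp p) 11)
  have hW : ¬ 11 ∣ (sysE6.wSet (List.range chevE6.rank)).card := by rw [weylCard]; norm_num
  obtain ⟨z, hz, hlift⟩ := CfsgLib.F4AltSection.exists_lift_toral sysE6 hq hW f hf π hπ hs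
  obtain ⟨x, -, hx⟩ := hlift c 2 hc
  obtain ⟨g, hg⟩ := CfsgLib.F4AltSection.exists_toral sysE6 hq hW (P := Subgroup.zpowers (f z))
    (IsPGroup.of_card (n := 1) (by rw [Nat.card_zpowers, orderOf_injective f hf, hz, pow_one]))
  have hmem := hg _ (Subgroup.mem_zpowers (f z))
  set u : GL chevE6.Idx F := ((g * f z * g⁻¹ : ↥(chevE6.group F)) : GL chevE6.Idx F) with hu
  have hu11 : u ^ 11 = 1 := by
    rw [hu, ← Subgroup.coe_pow, conj_pow, ← map_pow, ← hz, pow_orderOf_eq_one, map_one, mul_one, mul_inv_cancel]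
    rfl
  have hu1 : u ≠ 1 := fun h => by
    have : g * f z * g⁻¹ = 1 := Subtype.ext h
    rw [mul_inv_eq_one, mul_eq_left, ← map_one f] at this
    rw [hf this, orderOf_one] at hz
    norm_num at hz
  rw [sysE6.diagonal_eq] at hmem
  obtain ⟨c₀, hc₀⟩ := hmem
  rw [tor_ext_range] at hc₀
  set c₁ : Fin 6 → Fˣ := (fun i : Fin 6 => c₀ i) ^ 12 with hc₁
  have hθ : θm F (tc F c₁) = u := by
    rw [theta_tc, hc₁, map_pow, hc₀]
    calc u ^ 12 = u ^ 11 * u := pow_succ u 11
      _ = u := by rw [hu11, one_mul]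
  have hc11 : c₁ ^ 11 = 1 := by
    have h3 := ker_cube (c := (fun i : Fin 6 => c₀ i) ^ 11) (by rw [map_pow, hc₀, hu11])
    rw [← pow_mul] at h3
    rw [hc₁, ← pow_mul, show 12 * 11 = 11 * 3 * 4 by norm_num, pow_mul, h3, one_pow]
  set t := tc F c₁ with ht
  have ht11 : t ^ 11 = 1 := by rw [ht, ← map_pow, hc11, map_one]
  obtain ⟨X, hX⟩ := exists_theta (g * f x * g⁻¹).2
  set w := X * t * X⁻¹ * (t ^ 2)⁻¹ with hw
  have hwθ : θm F w = 1 := by
    have e : g * f x * g⁻¹ * (g * f z * g⁻¹) * (g * f x * g⁻¹)⁻¹ = (g * f z * g⁻¹) ^ 2 := by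
      have := congrArg f hx
      rw [map_mul, map_mul, map_inv, map_pow] at this
      rw [conj_pow, ← this]; group
    have e' := congrArg Subtype.val e
    rw [Subgroup.coe_mul, Subgroup.coe_mul, Subgroup.coe_inv, Subgroup.coe_pow, ← hu, ← hX] at e'
    rw [hw, map_mul, map_mul, map_mul, map_inv, map_inv, map_pow, hθ, e', mul_inv_cancel]
  have hcomm : Commute w (t ^ 2) := by
    obtain ⟨d, hd⟩ := mem_range_of_ker hwθ
    rw [← hd, ht, ← map_pow]
    exact (Commute.all _ _).map (tc F)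
  have hw1 : w = 1 := by
    refine eq_one_of_coprime (show Nat.Coprime 3 11 by norm_num) (ker_theta hwθ) ?_
    have e : (X * t * X⁻¹) ^ 11 = 1 := by rw [conj_pow, ht11, mul_one, mul_inv_cancel]
    rw [show X * t * X⁻¹ = w * t ^ 2 by rw [hw, inv_mul_cancel_right], hcomm.mul_pow,
      ← pow_mul, show 2 * 11 = 11 * 2 by norm_num, pow_mul, ht11, one_pow, mul_one] at e
    exact e
  have hrel : X * t * X⁻¹ = t ^ 2 := mul_inv_eq_one.1 (hw ▸ hw1)
  set d : I27 → Kp p := fun a => ι (tw F c₁ a : F) with hd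
  have hMd : (ξ F t : Matrix I27 I27 F).map ι = Matrix.diagonal d := by
    rw [ht, xi_tc, diagU_val, Matrix.diagonal_map (map_zero ι)]

  have hshape : MonoShape (ξ F t : Matrix I27 I27 F) 1 (fun a => (tw F c₁ a : F)) := by
    refine ⟨fun a b => ?_, fun b => Units.ne_zero _⟩
    rw [ht, xi_tc, diagU_val, Matrix.diagonal_apply, Equiv.Perm.one_apply]
    by_cases hab : a = b
    · subst hab; rfl
    · simp [hab]
  refine spectrum_eleven hζ (d := d) (X := (ξ F X : Matrix I27 I27 F).map ι)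
    (X' := (ξ F X⁻¹ : Matrix I27 I27 F).map ι)
    (by rw [map_xi_mul, inv_mul_cancel, map_xi_one]) (by rw [map_xi_mul, mul_inv_cancel, map_xi_one])
    (by rw [← hMd, map_xi_mul, map_xi_mul, hrel, map_xi_pow])
    (by rw [← hMd, map_xi_pow, ht11, map_xi_one])
    (fun m hm => by rw [hd, ← map_mul, ← map_mul, (mono_form hshape).2 rfl m hm, map_one]) fun h => hu1 ?_
  have hξ : ξ F t = 1 := Units.ext (Matrix.map_injective ι.injective (by
    show (ξ F t : Matrix I27 I27 F).map ι = (1 : Matrix I27 I27 F).map ι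
    rw [hMd, h, Matrix.map_one ι (map_zero ι) (map_one ι)]))
  have hone : c₁ = 1 := xi_tc_injective (by
    show ξ F (tc F c₁) = ξ F (tc F 1)
    rw [← ht, hξ, map_one, map_one])
  rw [← hθ, ht, hone, map_one, map_one]

end CfsgLib.E6AltSection
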