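import Cfsg.Agent.E6AltSection.Orbits

/-!
Irreducible modules of dimension at most twenty-seven of minimal coverings of the alternating group of
degree twelve in which a five-element has small eigenspaces: abelian normal subgroups act by scalars.
-/

set_option autoImplicit false
set_option linter.unusedSectionVars false
set_option linter.style.haveILetI false

namespace CfsgLib.E6AltSection

open Module Equiv CfsgLib.AltLinear
open scoped commutatorElement

variable {p : ℕ} [Fact p.Prime] {Γ : Type} [Group Γ] [Finite Γ] {π : Γ →* Alt 12} {g : Γ}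
  {V : Type} [AddCommGroup V] [Module (Kp p) V] [FiniteDimensional (Kp p) V] (ρ : Representation (Kp p) Γ V)

/-- Abelian normal subgroups act by scalars. -/
theorem scalar_abelian (hπ : Function.Surjective π) (hmin : ∀ M : Subgroup Γ, M ≠ ⊤ → M.map π ≠ ⊤)
    (hd : FiveData π g) [Nontrivial V]
    (hirr : ∀ U : Submodule (Kp p) V, (∀ g, ∀ x ∈ U, ρ g x ∈ U) → U = ⊥ ∨ U = ⊤)
    (hn : finrank (Kp p) V ≤ 27) (hμ : ∀ μ : Kp p, μ ^ 5 = 1 → edim (ρ g) μ ≤ 7)
    (A : Subgroup Γ) [hAn : A.Normal] (hA : ∀ a ∈ A, ∀ b ∈ A, a * b = b * a) :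
    ∀ a ∈ A, ∃ c : Kp p, ρ a = c • 1 := by
  classical
  obtain ⟨χ₀, v₀, hv₀, hχ₀⟩ := exists_common_eigen ρ A hA
  have hTc : ∀ a b : ↥A, Commute (ρ a.1) (ρ b.1) := fun a b => by
    rw [Commute, SemiconjBy, ← map_mul, ← map_mul, hA a.1 a.2 b.1 b.2]
  let S : Set (↥A → Kp p) := {χ | ∃ v : V, v ≠ 0 ∧ ∀ a : ↥A, ρ a.1 v = χ a • v}
  let cj : Γ → ↥A → ↥A := fun g a => ⟨g⁻¹ * a.1 * g, by
    have := hAn.conj_mem a.1 a.2 g⁻¹
    rwa [inv_inv] at this⟩
  have hmove : ∀ (h : Γ) (χ : ↥A → Kp p) (v : V), (∀ a : ↥A, ρ a.1 v = χ a • v) →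
      ∀ a : ↥A, ρ a.1 (ρ h v) = χ (cj h a) • ρ h v := fun h χ v hve a => by
    have := congrArg (ρ h) (hve (cj h a))
    rw [map_smul, ← rep_mul_apply] at this
    rw [← this, ← rep_mul_apply]
    congr 1
    simp [cj, mul_assoc]
  have hrep0 : ∀ (h : Γ) {v : V}, v ≠ 0 → ρ h v ≠ 0 := fun h v hv h0 =>
    hv (rep_injective ρ h (by simpa using h0))
  have hmem : ∀ g (χ : ↥S), (fun a => χ.1 (cj g a)) ∈ S := fun g χ => by
    obtain ⟨v, hv, hve⟩ := χ.2
    exact ⟨ρ g v, hrep0 g hv, hmove g χ.1 v hve⟩
  let act : Γ →* Perm ↥S :=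
    { toFun := fun g =>
        { toFun := fun χ => ⟨_, hmem g χ⟩
          invFun := fun χ => ⟨_, hmem g⁻¹ χ⟩
          left_inv := fun χ => Subtype.ext (funext fun a => congrArg χ.1 (Subtype.ext (by simp [cj, mul_assoc])))
          right_inv := fun χ => Subtype.ext (funext fun a => congrArg χ.1 (Subtype.ext (by simp [cj, mul_assoc]))) }
      map_one' := Equiv.ext fun χ => Subtype.ext (funext fun a => congrArg χ.1 (Subtype.ext (by simp [cj])))
      map_mul' := fun g g' => Equiv.ext fun χ => Subtype.ext (funext fun a =>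
        congrArg χ.1 (Subtype.ext (by simp [cj, mul_assoc]))) }
  have hact : ∀ (h : Γ) (χ : ↥S) (a : ↥A), (act h χ).1 a = χ.1 (cj h a) := fun _ _ _ => rfl
  rcases normal_eq_top_or_le (by norm_num) hπ hmin act.ker with htop | hle
  · intro a ha
    let U : Submodule (Kp p) V := ⨅ b : ↥A, Module.End.eigenspace (ρ b.1) (χ₀ b)
    have hU : ∀ h, ∀ x ∈ U, ρ h x ∈ U := by
      intro h x hx
      simp only [U, Submodule.mem_iInf, Module.End.mem_eigenspace_iff] at hx ⊢
      intro b
      have hfix : act h ⟨χ₀, v₀, hv₀, hχ₀⟩ = ⟨χ₀, v₀, hv₀, hχ₀⟩ := by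
        rw [show act h = 1 from (htop ▸ Subgroup.mem_top h : h ∈ act.ker)]; rfl
      have hb : χ₀ (cj h b) = χ₀ b := congrFun (congrArg Subtype.val hfix) b
      rw [hmove h χ₀ x hx b, hb]
    rcases hirr U hU with hb | ht
    · exfalso
      refine hv₀ ((Submodule.eq_bot_iff _).1 hb v₀ ?_)
      simp only [U, Submodule.mem_iInf, Module.End.mem_eigenspace_iff]
      exact hχ₀
    · refine ⟨χ₀ ⟨a, ha⟩, LinearMap.ext fun x => ?_⟩
      have hx : x ∈ U := ht ▸ Submodule.mem_top
      simp only [U, Submodule.mem_iInf, Module.End.mem_eigenspace_iff] at hx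
      exact hx ⟨a, ha⟩
  · exfalso
    obtain ⟨s, x, hxg, hxs⟩ := seven_cycles hd act hle
    set z := act g with hz
    have hz5 : z ^ 5 = 1 := by rw [hz, ← map_pow, hd.pow, map_one]
    have hcount : ∀ {ι' : Type} [Fintype ι'] (f : ι' → ↥S), Function.Injective f → Fintype.card ι' ≤ 27 :=
      fun {ι'} _ f hf => by
        choose v hv0 hv using fun i => (f i).2
        exact ((weights_indep (fun a : ↥A => ρ a.1) hTc (fun i => (f i).1)
          (Subtype.val_injective.comp hf) v hv0 hv).fintype_card_le_finrank).trans hn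
    have hzne : ∀ {t : ↥S}, z t ≠ t → ∀ n m : Fin 5, (z ^ (n.val : ℤ)) t = (z ^ (m.val : ℤ)) t → n = m := by
      intro t ht n m e
      by_contra hne
      refine ht (fix_of_zpow hz5 (n := (n.val : ℤ) - m.val) ?_ ?_)
      · refine (z ^ (m.val : ℤ)).injective ?_
        rw [← Perm.mul_apply, ← zpow_add, add_sub_cancel, e]
      · have := n.isLt
        have := m.isLt
        have : n.val ≠ m.val := fun e => hne (Fin.ext e)
        omega
    have hcom : ∀ i (n : ℤ), z ^ n * act (x i) = act (x i) * z ^ n := fun i n =>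
      (((show Commute (x i) g from hxg i).map act).zpow_right n).eq.symm
    by_cases hfix : z s = s
    · obtain ⟨t, ht⟩ : ∃ t, z t ≠ t := by
        by_contra hall
        push Not at hall
        exact hd.ne (hle (Equiv.ext hall : z = 1))
      let W : Submodule (Kp p) V := ⨅ b : ↥A, Module.End.eigenspace (ρ b.1) (s.1 b)
      have hWg : ∀ v ∈ W, ρ g v ∈ W := fun v hv => by
        simp only [W, Submodule.mem_iInf, Module.End.mem_eigenspace_iff] at hv ⊢
        intro b
        rw [hmove g s.1 v hv b, ← hact g s b, ← hz, hfix]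
      have hW0 : W ≠ ⊥ := fun hb => by
        obtain ⟨v, hv, hve⟩ := s.2
        refine hv ((Submodule.eq_bot_iff _).1 hb v ?_)
        simp only [W, Submodule.mem_iInf, Module.End.mem_eigenspace_iff]
        exact hve
      obtain ⟨μ, w, hwW, hw, hwe⟩ := exists_eigen_mem (ρ g) W hWg hW0
      simp only [W, Submodule.mem_iInf, Module.End.mem_eigenspace_iff] at hwW
      have hμ5 : μ ^ 5 = 1 := eigen_pow_eq_one (ρ g) (by rw [← map_pow, hd.pow, map_one]) hw hwe
      obtain ⟨vt, hvt0, hvt⟩ := t.2
      let f : Fin 7 ⊕ Fin 5 → ↥S := Sum.elim (fun i => act (x i) s) fun n => (z ^ (n.val : ℤ)) t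
      let v : Fin 7 ⊕ Fin 5 → V := Sum.elim (fun i => ρ (x i) w) fun n => ρ (g ^ n.val) vt
      have hout : ∀ i (n : ℤ), act (x i) s ≠ (z ^ n) t := fun i n e => by
        refine ht ((z ^ n).injective ?_)
        have h1 : (z ^ n) (z t) = z ((z ^ n) t) :=
          DFunLike.congr_fun ((Commute.refl z).zpow_left n).eq t
        have h2 : z (act (x i) s) = act (x i) (z s) := by
          have := DFunLike.congr_fun (hcom i 1) s
          rwa [Perm.mul_apply, Perm.mul_apply, zpow_one] at this
        rw [h1, ← e, h2, hfix]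
      have hf : Function.Injective f := by
        rintro (i | n) (j | m) e
        · refine congrArg Sum.inl ?_
          by_contra hij
          exact hxs i j hij 0 (by rw [zpow_zero]; exact e)
        · exact absurd e (hout i m.val)
        · exact absurd e.symm (hout j n.val)
        · exact congrArg Sum.inr (hzne ht n m e)
      have hv0 : ∀ a, v a ≠ 0 := by
        rintro (i | n)
        exacts [hrep0 _ hw, hrep0 _ hvt0]
      have hv : ∀ a (b : ↥A), ρ b.1 (v a) = (f a).1 b • v a := by
        rintro (i | n) b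
        · show ρ b.1 (ρ (x i) w) = (act (x i) s).1 b • ρ (x i) w
          rw [hmove (x i) s.1 w hwW b, hact]
        · show ρ b.1 (ρ (g ^ n.val) vt) = ((z ^ (n.val : ℤ)) t).1 b • ρ (g ^ n.val) vt
          rw [hmove (g ^ n.val) t.1 vt hvt b, ← hact, map_pow, zpow_natCast]
      have hind := weights_indep (fun a : ↥A => ρ a.1) hTc (fun a => (f a).1)
        (Subtype.val_injective.comp hf) v hv0 hv
      let c : Fin 5 → Kp p := fun n => μ ^ (4 * n.val)
      let u : Fin 7 ⊕ Unit → V := Sum.elim (fun i => ρ (x i) w) fun _ => ∑ n : Fin 5, c n • ρ (g ^ n.val) vt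
      have hu : ∀ a, u a ∈ Module.End.eigenspace (ρ g) μ := by
        rintro (i | _) <;> rw [Module.End.mem_eigenspace_iff]
        · show ρ g (ρ (x i) w) = μ • ρ (x i) w
          rw [← rep_mul_apply, ← hxg i, rep_mul_apply, hwe, map_smul]
        · show ρ g (∑ n : Fin 5, c n • ρ (g ^ n.val) vt) = μ • ∑ n : Fin 5, c n • ρ (g ^ n.val) vt
          simp only [Fin.sum_univ_five, map_add, map_smul, ← rep_mul_apply, ← pow_succ', smul_add, smul_smul, c]
          simp only [Fin.val_zero, Fin.val_one, Fin.val_two, show ((3 : Fin 5) : ℕ) = 3 from rfl,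
            show ((4 : Fin 5) : ℕ) = 4 from rfl, Nat.zero_add, Nat.reduceAdd, Nat.reduceMul, hd.pow, pow_zero, pow_one]
          rw [show μ ^ 17 = μ ^ 12 by linear_combination (μ ^ 12) * hμ5,
            show μ ^ 13 = μ ^ 8 by linear_combination (μ ^ 8) * hμ5,
            show μ ^ 9 = μ ^ 4 by linear_combination (μ ^ 4) * hμ5, hμ5,
            show μ ^ 16 = μ by linear_combination (μ ^ 11 + μ ^ 6 + μ) * hμ5]
          abel
      have huind : LinearIndependent (Kp p) u := Fintype.linearIndependent_iff.2 fun co hco => by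
        have h := Fintype.linearIndependent_iff.1 hind
          (Sum.elim (fun i => co (Sum.inl i)) fun n => co (Sum.inr ()) * c n) (by
            rw [Fintype.sum_sum_type] at hco ⊢
            simp only [Fintype.sum_unique, u, v, Sum.elim_inl, Sum.elim_inr, Finset.smul_sum, smul_smul] at hco ⊢
            exact hco)
        rintro (i | _)
        · exact h (Sum.inl i)
        · have := h (Sum.inr 0)
          simpa [c] using this
      have h8 : LinearIndependent (Kp p) fun a => (⟨u a, hu a⟩ : Module.End.eigenspace (ρ g) μ) :=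
        LinearIndependent.of_comp (Submodule.subtype _) huind
      have := h8.fintype_card_le_finrank
      have h7 := hμ μ hμ5
      rw [edim] at h7
      simp only [Fintype.card_sum, Fintype.card_fin, Fintype.card_unit] at this
      omega
    · have := hcount (fun a : Fin 7 × Fin 5 => (z ^ (a.2.val : ℤ)) (act (x a.1) s)) (by
        rintro ⟨i, n⟩ ⟨j, m⟩ e
        have e' : (z ^ (n.val : ℤ)) (act (x i) s) = (z ^ (m.val : ℤ)) (act (x j) s) := e
        have hij : i = j := by
          by_contra hne
          refine hxs _ _ hne (-(n.val : ℤ) + m.val) ?_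
          refine (z ^ (n.val : ℤ)).injective ?_
          rw [← Perm.mul_apply (z ^ (n.val : ℤ)) (z ^ _), ← zpow_add, add_neg_cancel_left]
          exact e'
        subst hij
        refine Prod.ext rfl (hzne (fun h => hfix ?_) _ _ e')
        refine (act (x i)).injective ?_
        rw [← Perm.mul_apply, ← zpow_one z, ← hcom, Perm.mul_apply, zpow_one]
        exact h)
      simp at this

end CfsgLib.E6AltSection
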