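import Cfsg.Agent.E6AltSection.Central

/-!
A module of dimension at most twenty-seven of a minimal covering of the alternating group of degree twelve
can be replaced by one with the same spectrum of the five-element on which the kernel acts centrally.
-/

set_option autoImplicit false
set_option linter.unusedSectionVars false
set_option linter.style.haveILetI false

namespace CfsgLib.E6AltSection

open Module Equiv CfsgLib.AltLinear

theorem edim_prod {k V W : Type*} [Field k] [IsAlgClosed k] [AddCommGroup V] [Module k V] [FiniteDimensional k V]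
    [AddCommGroup W] [Module k W] [FiniteDimensional k W] (S : Module.End k V) (T : Module.End k W) (μ : k) :
    edim (S.prodMap T) μ = edim S μ + edim T μ := by
  rw [edim, edim, edim, ← Module.finrank_prod]
  refine LinearEquiv.finrank_eq
    { toFun := fun x => (⟨x.1.1, ?_⟩, ⟨x.1.2, ?_⟩)
      invFun := fun y => ⟨(y.1.1, y.2.1), ?_⟩
      map_add' := fun _ _ => rfl
      map_smul' := fun _ _ => rfl
      left_inv := fun _ => rfl
      right_inv := fun _ => rfl }
  · exact End.mem_eigenspace_iff.2 (congrArg Prod.fst (End.mem_eigenspace_iff.1 x.2))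
  · exact End.mem_eigenspace_iff.2 (congrArg Prod.snd (End.mem_eigenspace_iff.1 x.2))
  · exact End.mem_eigenspace_iff.2 (Prod.ext (End.mem_eigenspace_iff.1 y.1.2) (End.mem_eigenspace_iff.1 y.2.2))

variable {p : ℕ} [Fact p.Prime] {Γ : Type} [Group Γ] [Finite Γ] {π : Γ →* Alt 12} {g : Γ}

theorem irreducible_scalar (hπ : Function.Surjective π) (hmin : ∀ M : Subgroup Γ, M ≠ ⊤ → M.map π ≠ ⊤)
    (hd : FiveData π g) {V : Type} [AddCommGroup V] [Module (Kp p) V] [FiniteDimensional (Kp p) V] [Nontrivial V]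
    (ρ : Representation (Kp p) Γ V)
    (hirr : ∀ U : Submodule (Kp p) V, (∀ g, ∀ x ∈ U, ρ g x ∈ U) → U = ⊥ ∨ U = ⊤)
    (hn : finrank (Kp p) V ≤ 27) (hμ : ∀ μ : Kp p, μ ^ 5 = 1 → edim (ρ g) μ ≤ 7) :
    ∀ z ∈ π.ker, ∃ c : Kp p, ρ z = c • 1 := by
  let ρu : Γ →* (Module.End (Kp p) V)ˣ := ρ.toHomUnits
  rcases normal_eq_top_or_le (by norm_num) hπ hmin ρu.ker with htop | hle
  · intro z _
    refine ⟨1, ?_⟩
    rw [one_smul]
    exact congrArg Units.val (htop ▸ Subgroup.mem_top z : z ∈ ρu.ker)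
  let r := ρu.rangeRestrict
  have hr : Function.Surjective r := ρu.rangeRestrict_surjective
  haveI : Finite ρu.range := Finite.of_surjective r hr
  let π' : ρu.range →* Alt 12 := r.liftOfSurjective hr
    ⟨π, fun x hx => hle (show ρu x = 1 from congrArg Subtype.val (show r x = 1 from hx))⟩
  have hπ' : ∀ h, π' (r h) = π h := fun h => MonoidHom.liftOfRightInverse_comp_apply _ _ _ _ h
  intro z hz
  refine faithful_scalar (Γ := ρu.range) (π := π') (g := r g) ((Units.coeHom _).comp ρu.range.subtype)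
    (fun x => by obtain ⟨h, rfl⟩ := hπ x; exact ⟨_, hπ' h⟩) (fun M hM htop => ?_)
    ⟨(hπ' g).trans hd.image, by rw [← map_pow, hd.pow, map_one], fun y => by
      obtain ⟨x, hx, hxg⟩ := hd.lift y
      exact ⟨r x, (hπ' x).trans hx, by rw [← map_mul, ← map_mul, hxg]⟩⟩
    (fun h hh => Subtype.ext (Units.ext hh)) (fun U hU => hirr U fun h x hx => hU (r h) x hx) hn hμ
    (r z) (by rw [MonoidHom.mem_ker, hπ']; exact hz)
  refine hmin (M.comap r) (fun e => hM ?_) ?_
  · rw [← Subgroup.map_comap_eq_self_of_surjective hr M, e, Subgroup.map_top_of_surjective r hr]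
  · rw [eq_top_iff, ← htop]
    rintro _ ⟨y, hy, rfl⟩
    obtain ⟨h, rfl⟩ := hr y
    exact ⟨h, hy, (hπ' h).symm⟩

theorem exists_semisimple (hπ : Function.Surjective π) (hmin : ∀ M : Subgroup Γ, M ≠ ⊤ → M.map π ≠ ⊤)
    (hd : FiveData π g) (h5 : ((5 : ℕ) : Kp p) ≠ 0) {ζ : Kp p} (hζ : IsPrimitiveRoot ζ 5) :
    ∀ (n : ℕ) (V : Type) [AddCommGroup V] [Module (Kp p) V] [FiniteDimensional (Kp p) V]
      (ρ : Representation (Kp p) Γ V), finrank (Kp p) V = n → n ≤ 27 →
      (∀ μ : Kp p, μ ^ 5 = 1 → edim (ρ g) μ ≤ 7) →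
      ∃ (W : Type) (_ : AddCommGroup W) (_ : Module (Kp p) W) (_ : FiniteDimensional (Kp p) W)
        (ρ' : Representation (Kp p) Γ W), finrank (Kp p) W = n ∧ (∀ μ, edim (ρ' g) μ = edim (ρ g) μ) ∧
          ∀ z ∈ π.ker, ∀ y, ρ' z * ρ' y = ρ' y * ρ' z := by
  intro n
  induction n using Nat.strong_induction_on with
  | _ n ih =>
  intro V _ _ _ ρ hn h27 hμ
  by_cases hirr : ∀ U : Submodule (Kp p) V, (∀ g, ∀ x ∈ U, ρ g x ∈ U) → U = ⊥ ∨ U = ⊤
  · refine ⟨V, inferInstance, inferInstance, inferInstance, ρ, hn, fun _ => rfl, fun z hz y => ?_⟩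
    rcases subsingleton_or_nontrivial V with h | h
    · exact LinearMap.ext fun x => Subsingleton.elim _ _
    · obtain ⟨c, hc⟩ := irreducible_scalar hπ hmin hd ρ hirr (hn ▸ h27) hμ z hz
      rw [hc, smul_mul_assoc, one_mul, mul_smul_comm, mul_one]
  · push Not at hirr
    obtain ⟨U, hU, hU0, hU1⟩ := hirr
    have hlt1 : finrank (Kp p) U < n := hn ▸ Submodule.finrank_lt hU1
    have hsum := U.finrank_quotient_add_finrank
    have hlt2 : finrank (Kp p) (V ⧸ U) < n := by
      have : 0 < finrank (Kp p) U := Nat.pos_of_ne_zero fun h => hU0 (Submodule.finrank_eq_zero.1 h)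
      omega
    have hadd : ∀ μ, edim (ρ g) μ = edim (restrictRep ρ U hU g) μ + edim (quotRep ρ U hU g) μ :=
      edim_add (ρ g) h5 (by rw [← map_pow, hd.pow, map_one]) U (hU g) hζ
    obtain ⟨W₁, _, _, _, ρ₁, d1, e1, c1⟩ := ih _ hlt1 U (restrictRep ρ U hU) rfl (by omega)
      fun μ h => le_trans (by rw [hadd]; exact Nat.le_add_right _ _) (hμ μ h)
    obtain ⟨W₂, _, _, _, ρ₂, d2, e2, c2⟩ := ih _ hlt2 (V ⧸ U) (quotRep ρ U hU) rfl (by omega)
      fun μ h => le_trans (by rw [hadd]; exact Nat.le_add_left _ _) (hμ μ h)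
    refine ⟨W₁ × W₂, inferInstance, inferInstance, inferInstance, ρ₁.prod ρ₂, ?_, fun μ => ?_, fun z hz y => ?_⟩
    · rw [Module.finrank_prod, d1, d2]; omega
    · show edim ((ρ₁ g).prodMap (ρ₂ g)) μ = _
      rw [edim_prod, e1, e2, hadd]
    · show (ρ₁ z).prodMap (ρ₂ z) * (ρ₁ y).prodMap (ρ₂ y) = (ρ₁ y).prodMap (ρ₂ y) * (ρ₁ z).prodMap (ρ₂ z)
      rw [LinearMap.prodMap_mul, LinearMap.prodMap_mul, c1 z hz y, c2 z hz y]

end CfsgLib.E6AltSection
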