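import Cfsg.Agent.E6AltSection.Semi

/-!
Spin modules in degree twelve: eigenspaces of five-elements are even dimensional, and dimension sixteen
is impossible in characteristic at least five.
-/

set_option autoImplicit false
set_option linter.unusedSectionVars false
set_option linter.style.haveILetI false

namespace CfsgLib.E6AltSection

open Module Equiv CfsgLib.AltLinear

variable {k : Type} [Field k] [IsAlgClosed k] {Γ : Type} [Group Γ] {W : Type} [AddCommGroup W] [Module k W]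
  [FiniteDimensional k W]

/-- Spin modules have even dimension. -/
theorem spin_even_dim {m : ℕ} {q : Γ →* Alt m} {σ : Representation k Γ W} (h : Spin q σ) (h2 : (2 : k) ≠ 0)
    (hm : 4 ≤ m) : Even (finrank k W) := by
  obtain ⟨u, hu⟩ := h.surj (em (Fin.castLEEmb hm) t4)
  obtain ⟨v, hv⟩ := h.surj (em (Fin.castLEEmb hm) u4)
  have hanti := h.anti _ u v hu hv
  obtain ⟨c, hc, hc0⟩ : ∃ c : k, σ (u * u) = c • 1 ∧ c ≠ 0 := by
    rcases (h.ker (u * u) (by rw [map_mul, hu, ← map_mul, t4_mul_self, map_one])).2.1 with e | e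
    · exact ⟨1, by rw [e, one_smul], one_ne_zero⟩
    · exact ⟨-1, by rw [e, neg_smul, one_smul], neg_ne_zero.2 one_ne_zero⟩
  obtain ⟨l, hl⟩ := IsAlgClosed.exists_pow_nat_eq c (show 0 < 2 by norm_num)
  have hl0 : l ≠ 0 := fun e => hc0 (by rw [← hl, e]; simp)
  set P := End.eigenspace (σ u) l
  set N := End.eigenspace (σ u) (-l)
  have huu : ∀ x, σ u (σ u x) = c • x := fun x => by
    rw [← rep_mul_apply, hc]; rfl
  have hsup : P ⊔ N = ⊤ := eq_top_iff.2 fun x _ => by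
    rw [Submodule.mem_sup]
    refine ⟨(2 * l)⁻¹ • (σ u x + l • x), End.mem_eigenspace_iff.2 ?_, (2 * l)⁻¹ • (l • x - σ u x),
      End.mem_eigenspace_iff.2 ?_, ?_⟩
    · simp only [map_smul, map_add, huu, ← hl]
      module
    · simp only [map_smul, map_sub, huu, ← hl]
      module
    · rw [← smul_add, show σ u x + l • x + (l • x - σ u x) = (2 * l) • x by module, smul_smul,
        inv_mul_cancel₀ (mul_ne_zero h2 hl0), one_smul]
  have hinf : P ⊓ N = ⊥ := (Submodule.eq_bot_iff _).2 fun x hx => by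
    obtain ⟨h1, h1'⟩ := Submodule.mem_inf.1 hx
    rw [End.mem_eigenspace_iff] at h1 h1'
    have : (2 * l) • x = 0 := by
      rw [show (2 * l) • x = l • x - (-l) • x by module, ← h1, ← h1', sub_self]
    exact (smul_eq_zero.1 this).resolve_left (mul_ne_zero h2 hl0)
  have hmap : ∀ a : k, finrank k (End.eigenspace (σ u) a) ≤ finrank k (End.eigenspace (σ u) (-a)) := fun a => by
    rw [← finrank_map_rep σ v (End.eigenspace (σ u) a)]
    refine Submodule.finrank_mono ?_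
    rintro _ ⟨x, hx, rfl⟩
    rw [SetLike.mem_coe, End.mem_eigenspace_iff] at hx
    rw [End.mem_eigenspace_iff, ← rep_mul_apply, hanti, LinearMap.neg_apply, rep_mul_apply, hx, map_smul, neg_smul]
  have h1 := hmap l
  have h1' := hmap (-l)
  rw [neg_neg] at h1'
  have := Submodule.finrank_sup_add_finrank_inf_eq P N
  rw [hsup, hinf, finrank_top, finrank_bot, add_zero] at this
  exact ⟨finrank k P, by simp only [P, N] at *; omega⟩

/-- The eigenspaces of a five-element are even dimensional. -/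
theorem spin_five_even {q : Γ →* Alt 12} {σ : Representation k Γ W} (h : Spin q σ) (h2 : (2 : k) ≠ 0) {g : Γ}
    (hg : q g = em five c5) (hg5 : g ^ 5 = 1) (μ : k) : Even (edim (σ g) μ) := by
  have hd : ∀ i j, seven i ≠ five j := by decide
  have hU : ∀ a : ↥(Spin.sub q seven), ∀ x ∈ End.eigenspace (σ g) μ, σ a x ∈ End.eigenspace (σ g) μ := fun a =>
    eigen_invariant σ (h.sub_comm (o := 5) (by decide) hg5 five hg seven hd a) μ
  exact spin_even_dim (h.restrict seven _ hU) h2 (by norm_num)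

theorem eigenspace_rep_inv (σ : Representation k Γ W) (g : Γ) {a : k} (ha : a ≠ 0) :
    End.eigenspace (σ g⁻¹) a = End.eigenspace (σ g) a⁻¹ := by
  ext x
  simp only [End.mem_eigenspace_iff]
  constructor
  · intro hx
    have := congrArg (σ g) hx
    rw [rep_apply_inv, map_smul] at this
    rw [eq_inv_smul_iff₀ ha, ← this]
  · intro hx
    have := congrArg (σ g⁻¹) hx
    rw [rep_inv_apply, map_smul] at this
    conv_rhs => rw [this]
    rw [smul_inv_smul₀ ha]

/-- Three pairs, anticommuting within and commuting across. -/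
theorem anti_three {R : Type*} [Ring R] {a₀ a₁ a₂ b₀ b₁ b₂ : R} (h₀ : a₀ * b₀ = -(b₀ * a₀))
    (h₁ : a₁ * b₁ = -(b₁ * a₁)) (h₂ : a₂ * b₂ = -(b₂ * a₂)) (c₀₁ : Commute a₀ b₁) (c₀₂ : Commute a₀ b₂)
    (c₁₀ : Commute a₁ b₀) (c₁₂ : Commute a₁ b₂) (c₂₀ : Commute a₂ b₀) (c₂₁ : Commute a₂ b₁) :
    a₀ * a₁ * a₂ * (b₀ * b₁ * b₂) = -(b₀ * b₁ * b₂ * (a₀ * a₁ * a₂)) := by
  have e₀ : a₀ * a₁ * a₂ * b₀ = -(b₀ * (a₀ * a₁ * a₂)) := by
    calc a₀ * a₁ * a₂ * b₀ = a₀ * b₀ * (a₁ * a₂) := by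
          rw [mul_assoc (a₀ * a₁), c₂₀.eq, mul_assoc a₀ a₁, ← mul_assoc a₁, c₁₀.eq]; noncomm_ring
      _ = _ := by rw [h₀]; noncomm_ring
  have e₁ : a₀ * a₁ * a₂ * b₁ = -(b₁ * (a₀ * a₁ * a₂)) := by
    calc a₀ * a₁ * a₂ * b₁ = a₀ * (a₁ * b₁) * a₂ := by
          rw [mul_assoc (a₀ * a₁), c₂₁.eq]; noncomm_ring
      _ = -(a₀ * b₁ * (a₁ * a₂)) := by rw [h₁]; noncomm_ring
      _ = _ := by rw [c₀₁.eq]; noncomm_ring
  have e₂ : a₀ * a₁ * a₂ * b₂ = -(b₂ * (a₀ * a₁ * a₂)) := by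
    calc a₀ * a₁ * a₂ * b₂ = a₀ * a₁ * (a₂ * b₂) := by noncomm_ring
      _ = -(a₀ * (a₁ * b₂) * a₂) := by rw [h₂]; noncomm_ring
      _ = -(a₀ * b₂ * (a₁ * a₂)) := by rw [c₁₂.eq]; noncomm_ring
      _ = _ := by rw [c₀₂.eq]; noncomm_ring
  rw [← mul_assoc, ← mul_assoc, e₀, neg_mul, neg_mul, mul_assoc b₀ (a₀ * a₁ * a₂) b₁, e₁, mul_neg, neg_mul,
    neg_neg, ← mul_assoc, mul_assoc (b₀ * b₁) (a₀ * a₁ * a₂) b₂, e₂, mul_neg, ← mul_assoc]

/-- The four blocks. -/
def blk : Fin 4 → Fin 3 ↪ Fin 12 :=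
  ![mkEmb ![0, 1, 2] (by decide), mkEmb ![3, 4, 5] (by decide), mkEmb ![6, 7, 8] (by decide),
    mkEmb ![9, 10, 11] (by decide)]

/-- The three transversal quadruples. -/
def quad : Fin 3 → Fin 4 ↪ Fin 12 :=
  ![mkEmb ![0, 3, 6, 9] (by decide), mkEmb ![1, 4, 7, 10] (by decide), mkEmb ![2, 5, 8, 11] (by decide)]

/-- Two triples of letters whose cycles multiply to an involution. -/
def pairA : Fin 3 ↪ Fin 4 := mkEmb ![0, 1, 2] (by decide)

/-- The second triple. -/
def pairB : Fin 3 ↪ Fin 4 := mkEmb ![1, 2, 3] (by decide)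

theorem t4_eq : em pairA c3 * em pairB c3 = t4 := by
  let a : Alt 4 := ⟨swap 0 1 * swap 1 2, Perm.mem_alternatingGroup.2 (by decide)⟩
  let b : Alt 4 := ⟨swap 1 2 * swap 2 3, Perm.mem_alternatingGroup.2 (by decide)⟩
  rw [em_eq pairA c3 a (by decide) (by decide), em_eq pairB c3 b (by decide) (by decide)]
  decide

theorem A_flip {m : ℕ} (e : Fin 3 ↪ Fin m) : A ((swap (1 : Fin 3) 2).toEmbedding.trans e) = (A e)⁻¹ := by
  rw [A, em_perm e (swap 1 2) c3 c3⁻¹ (by decide), map_inv]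

theorem conj_flip (g : Alt 12) (e f : Fin 3 ↪ Fin 12) (h : ∀ i, g.1 (e i) = f (swap (1 : Fin 3) 2 i)) :
    g * A e * g⁻¹ = (A f)⁻¹ := by
  rw [← A_flip]; exact em_conj g e _ c3 h

theorem spin_small {q : Γ →* Alt 12} {σ : Representation k Γ W} (h : Spin q σ) (h2 : (2 : k) ≠ 0)
    (h3 : (3 : k) ≠ 0) [Nontrivial W] (hdim : finrank k W ≤ 16) : False := by
  classical
  haveI : NeZero ((3 : ℕ) : k) := ⟨three_ne_zero_iff.2 h3⟩
  obtain ⟨ω, hω⟩ := HasEnoughRootsOfUnity.exists_primitiveRoot k 3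
  have hω3 : ω ^ 3 = 1 := hω.pow_eq_one
  have hω0 : ω ≠ 0 := hω.ne_zero (by norm_num)
  have hωinv : ω ^ 2 = ω⁻¹ := eq_inv_of_mul_eq_one_left (by rw [← pow_succ, hω3])
  choose X hX hX3 using fun e : Fin 3 ↪ Fin 12 =>
    h.exists_lift (o := 3) (by decide) (show A e ^ 3 = 1 by rw [← map_pow, c3_pow, map_one])
  let E : (Fin 3 ↪ Fin 12) → k → Submodule k W := fun e a => End.eigenspace (σ (X e)) a
  have hXcomm : ∀ e f, (∀ i j, e i ≠ f j) → X e * X f = X f * X e := fun e f hd =>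
    h.comm_lift (o := 3) (by decide) (hX3 f) (by rw [hX, hX]; exact em_comm e f c3 c3 hd)
  have mapE : ∀ (G : Γ) (g : Alt 12) (e f : Fin 3 ↪ Fin 12) (a : k), q G = g → g * A e * g⁻¹ = A f →
      (E e a).map (σ G) = E f a := fun G g e f a hG hg => by
    simp only [E, map_eigen_conj]
    rw [h.conj_lift (o := 3) (by decide) (hX3 e) (hX3 f) (by rw [hG, hX, hX, hg])]
  have mapE' : ∀ (G : Γ) (g : Alt 12) (e f : Fin 3 ↪ Fin 12) (a : k), a ≠ 0 → q G = g →
      g * A e * g⁻¹ = (A f)⁻¹ → (E e a).map (σ G) = E f a⁻¹ := fun G g e f a ha hG hg => by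
    simp only [E, map_eigen_conj]
    rw [h.conj_lift (o := 3) (by decide) (hX3 e) (show (X f)⁻¹ ^ 3 = 1 by rw [inv_pow, hX3, inv_one])
      (by rw [map_inv, hG, hX, hX, hg]), eigenspace_rep_inv σ _ ha]
  have hsum : ∀ (e : Fin 3 ↪ Fin 12) (U : Submodule k W), (∀ x ∈ U, σ (X e) x ∈ U) →
      finrank k ↥(U ⊓ E e 1) + finrank k ↥(U ⊓ E e ω) + finrank k ↥(U ⊓ E e ω⁻¹) = finrank k U := by
    intro e U hU
    have := sum_inf (n := 3) (σ (X e)) (three_ne_zero_iff.2 h3) (by rw [← map_pow, hX3, map_one]) hω U hU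
    rw [Fin.sum_univ_three] at this
    simp only [Fin.val_zero, Fin.val_one, Fin.val_two] at this
    have hE : ∀ a b : k, a = b → finrank k ↥(U ⊓ End.eigenspace (σ (X e)) a) = finrank k ↥(U ⊓ E e b) :=
      fun a b h => by subst h; rfl
    rwa [hE _ _ (pow_zero ω), hE _ _ (pow_one ω), hE _ _ hωinv] at this
  have hnine : ∀ (e : Fin 3 ↪ Fin 12) (a : k), E e a = ⊥ ∨ 8 ≤ finrank k (E e a) := fun e a => by
    by_cases hb : E e a = ⊥
    · exact Or.inl hb
    refine Or.inr ?_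
    obtain ⟨d, hd, -⟩ := exists_complement e
    haveI : Nontrivial (E e a) := Submodule.nontrivial_iff_ne_bot.2 hb
    have hU : ∀ c : ↥(Spin.sub q d), ∀ x ∈ E e a, σ c x ∈ E e a := fun c =>
      eigen_invariant σ (h.sub_comm (o := 3) (by decide) (hX3 e) e (hX e) d hd c) a
    refine (Spin.bound 9 le_rfl (h.restrict d _ hU) h2).2 ?_
    rw [show ((9 : ℕ) : k) = 3 * 3 by norm_num]
    exact mul_ne_zero h3 h3
  have height : ∀ e : Fin 3 ↪ Fin 12, E e 1 = ⊥ ∧ finrank k (E e ω) = 8 := fun e => by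
    obtain ⟨g, hg⟩ := exists_inverting (by norm_num) e
    obtain ⟨G, hG⟩ := h.surj g
    have heq : finrank k (E e ω) = finrank k (E e ω⁻¹) := by
      rw [← mapE' G g e e ω hω0 hG hg, finrank_map_rep]
    have htot := hsum e ⊤ (fun x _ => Submodule.mem_top)
    rw [top_inf_eq, top_inf_eq, top_inf_eq, finrank_top] at htot
    have hne : E e ω ≠ ⊥ := fun hb => by
      rw [← Submodule.finrank_eq_zero] at hb
      have h1 : E e 1 = ⊤ := Submodule.eq_top_of_finrank_eq (by omega)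
      exact (h.ne_one h2 (by norm_num) (X := X e) (by rw [hX]; exact em_ne_one e c3_ne_one)).1
        (LinearMap.ext fun x => by
          have hx : x ∈ E e 1 := h1 ▸ Submodule.mem_top
          simpa [E] using hx)
    have h8 := (hnine e ω).resolve_left hne
    refine ⟨?_, by omega⟩
    rw [← Submodule.finrank_eq_zero]
    omega
  have hsplit : ∀ (e : Fin 3 ↪ Fin 12) (U : Submodule k W), (∀ x ∈ U, σ (X e) x ∈ U) →
      finrank k ↥(U ⊓ E e ω) + finrank k ↥(U ⊓ E e ω⁻¹) = finrank k U := fun e U hU => by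
    have := hsum e U hU
    rw [(height e).1, inf_bot_eq, finrank_bot, zero_add] at this
    exact this
  have hinv : ∀ e f, (∀ i j, e i ≠ f j) → ∀ (a : k), ∀ x ∈ E f a, σ (X e) x ∈ E f a := fun e f hd a =>
    eigen_invariant σ (hXcomm e f hd) a
  have hinv2 : ∀ e f g, (∀ i j, e i ≠ f j) → (∀ i j, e i ≠ g j) → ∀ (a c : k),
      ∀ x ∈ E f a ⊓ E g c, σ (X e) x ∈ E f a ⊓ E g c := fun e f g h1 h1' a c x hx =>
    ⟨hinv e f h1 a x hx.1, hinv e g h1' c x hx.2⟩
  -- four dimensions for two blocks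
  have hfour : finrank k ↥(E (blk 0) ω ⊓ E (blk 1) ω) = 4 := by
    let g : Alt 12 := ⟨swap 4 5 * swap 7 8, Perm.mem_alternatingGroup.2 (by decide)⟩
    obtain ⟨G, hG⟩ := h.surj g
    have heq : finrank k ↥(E (blk 0) ω ⊓ E (blk 1) ω) = finrank k ↥(E (blk 0) ω ⊓ E (blk 1) ω⁻¹) := by
      rw [← finrank_map_rep σ G (E (blk 0) ω ⊓ E (blk 1) ω), Submodule.map_inf _ (rep_injective σ G),
        mapE G g (blk 0) (blk 0) ω hG (em_conj g _ _ c3 (by decide)),
        mapE' G g (blk 1) (blk 1) ω hω0 hG (conj_flip g _ _ (by decide))]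
    have := hsplit (blk 1) (E (blk 0) ω) (hinv _ _ (by decide) ω)
    rw [(height (blk 0)).2] at this
    omega
  let L : k → k → Submodule k W := fun a c => E (blk 0) ω ⊓ E (blk 1) ω ⊓ E (blk 2) a ⊓ E (blk 3) c
  have hquarter : ∀ a c : k, c ≠ 0 → finrank k (L a c) = finrank k (L c⁻¹ a) := fun a c hc => by
    let g : Alt 12 := ⟨swap 6 9 * (swap 7 10 * swap 10 8 * swap 8 11), Perm.mem_alternatingGroup.2 (by decide)⟩
    obtain ⟨G, hG⟩ := h.surj g
    rw [← finrank_map_rep σ G (L a c)]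
    have hi := rep_injective σ G
    simp only [L]
    rw [Submodule.map_inf _ hi, Submodule.map_inf _ hi, Submodule.map_inf _ hi,
      mapE G g (blk 0) (blk 0) ω hG (em_conj g _ _ c3 (by decide)),
      mapE G g (blk 1) (blk 1) ω hG (em_conj g _ _ c3 (by decide)),
      mapE G g (blk 2) (blk 3) a hG (em_conj g _ _ c3 (by decide)),
      mapE' G g (blk 3) (blk 2) c hc hG (conj_flip g _ _ (by decide))]
    rw [inf_assoc _ (E (blk 3) a), inf_comm (E (blk 3) a), ← inf_assoc]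
  have hone : finrank k (L ω ω) = 1 := by
    have e0 := hsplit (blk 2) _ (hinv2 (blk 2) (blk 0) (blk 1) (by decide) (by decide) ω ω)
    have hi3 : ∀ (a : k), ∀ x ∈ E (blk 0) ω ⊓ E (blk 1) ω ⊓ E (blk 2) a,
        σ (X (blk 3)) x ∈ E (blk 0) ω ⊓ E (blk 1) ω ⊓ E (blk 2) a := fun a x hx =>
      ⟨hinv2 (blk 3) (blk 0) (blk 1) (by decide) (by decide) ω ω x hx.1, hinv _ _ (by decide) a x hx.2⟩
    have e1 := hsplit (blk 3) _ (hi3 ω)
    have e2 := hsplit (blk 3) _ (hi3 ω⁻¹)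
    have q1 : finrank k (L ω ω) = finrank k (L ω⁻¹ ω) := hquarter ω ω hω0
    have q2 : finrank k (L ω⁻¹ ω) = finrank k (L ω⁻¹ ω⁻¹) := hquarter ω⁻¹ ω hω0
    have q3 : finrank k (L ω⁻¹ ω⁻¹) = finrank k (L ω ω⁻¹) := by
      have := hquarter ω⁻¹ ω⁻¹ (inv_ne_zero hω0)
      rwa [inv_inv] at this
    simp only [L] at q1 q2 q3 ⊢
    omega
  -- the block permutations anticommute
  let T : (Fin 4 ↪ Fin 12) → Γ := fun Q => X (pairA.trans Q) * X (pairB.trans Q)
  have hT : ∀ Q, q (T Q) = em Q t4 := fun Q => by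
    show q (_ * _) = _
    rw [map_mul, hX, hX]
    show em (pairA.trans Q) c3 * em (pairB.trans Q) c3 = _
    rw [← em_trans, ← em_trans, ← map_mul, t4_eq]
  have hTc : ∀ Q R, (∀ i j, Q i ≠ R j) → Commute (σ (T Q)) (σ (T R)) := fun Q R hd => by
    have hc : ∀ a b : Fin 3 ↪ Fin 4, Commute (X (a.trans Q)) (X (b.trans R)) := fun a b =>
      hXcomm _ _ fun i j => hd _ _
    exact (((hc _ _).mul_left (hc _ _)).mul_right ((hc _ _).mul_left (hc _ _))).map σ
  have hTanti : ∀ Q, σ (T Q) * σ (T (rot Q)) = -(σ (T (rot Q)) * σ (T Q)) := fun Q => by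
    rw [← map_mul, ← map_mul]
    exact h.anti Q _ _ (hT Q) ((hT _).trans (em_rot_t Q))
  set u := T (quad 0) * T (quad 1) * T (quad 2) with hu
  set v := T (rot (quad 0)) * T (rot (quad 1)) * T (rot (quad 2)) with hv
  let gu : Alt 12 := ⟨swap 0 3 * swap 6 9 * swap 1 4 * swap 7 10 * swap 2 5 * swap 8 11,
    Perm.mem_alternatingGroup.2 (by decide)⟩
  let gv : Alt 12 := ⟨swap 0 6 * swap 3 9 * swap 1 7 * swap 4 10 * swap 2 8 * swap 5 11,
    Perm.mem_alternatingGroup.2 (by decide)⟩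
  have hqu : q u = gu := by
    rw [hu, map_mul, map_mul, hT, hT, hT,
      em_eq (quad 0) t4 ⟨swap 0 3 * swap 6 9, Perm.mem_alternatingGroup.2 (by decide)⟩ (by decide) (by decide),
      em_eq (quad 1) t4 ⟨swap 1 4 * swap 7 10, Perm.mem_alternatingGroup.2 (by decide)⟩ (by decide) (by decide),
      em_eq (quad 2) t4 ⟨swap 2 5 * swap 8 11, Perm.mem_alternatingGroup.2 (by decide)⟩ (by decide) (by decide)]
    decide +kernel
  have hqv : q v = gv := by
    rw [hv, map_mul, map_mul, hT, hT, hT, em_rot_t, em_rot_t, em_rot_t,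
      em_eq (quad 0) u4 ⟨swap 0 6 * swap 3 9, Perm.mem_alternatingGroup.2 (by decide)⟩ (by decide) (by decide),
      em_eq (quad 1) u4 ⟨swap 1 7 * swap 4 10, Perm.mem_alternatingGroup.2 (by decide)⟩ (by decide) (by decide),
      em_eq (quad 2) u4 ⟨swap 2 8 * swap 5 11, Perm.mem_alternatingGroup.2 (by decide)⟩ (by decide) (by decide)]
    decide +kernel
  have hanti : σ (u * v) = -σ (v * u) := by
    simp only [hu, hv, map_mul]
    exact anti_three (hTanti _) (hTanti _) (hTanti _) (hTc _ _ (by decide)) (hTc _ _ (by decide))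
      (hTc _ _ (by decide)) (hTc _ _ (by decide)) (hTc _ _ (by decide)) (hTc _ _ (by decide))
  have hLu : (L ω ω).map (σ u) = L ω ω := by
    simp only [L]
    rw [Submodule.map_inf _ (rep_injective σ u), Submodule.map_inf _ (rep_injective σ u), Submodule.map_inf _ (rep_injective σ u),
      mapE u gu (blk 0) (blk 1) ω hqu (em_conj gu _ _ c3 (by decide)),
      mapE u gu (blk 1) (blk 0) ω hqu (em_conj gu _ _ c3 (by decide)),
      mapE u gu (blk 2) (blk 3) ω hqu (em_conj gu _ _ c3 (by decide)),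
      mapE u gu (blk 3) (blk 2) ω hqu (em_conj gu _ _ c3 (by decide))]
    ac_rfl
  have hLv : (L ω ω).map (σ v) = L ω ω := by
    simp only [L]
    rw [Submodule.map_inf _ (rep_injective σ v), Submodule.map_inf _ (rep_injective σ v), Submodule.map_inf _ (rep_injective σ v),
      mapE v gv (blk 0) (blk 2) ω hqv (em_conj gv _ _ c3 (by decide)),
      mapE v gv (blk 1) (blk 3) ω hqv (em_conj gv _ _ c3 (by decide)),
      mapE v gv (blk 2) (blk 0) ω hqv (em_conj gv _ _ c3 (by decide)),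
      mapE v gv (blk 3) (blk 1) ω hqv (em_conj gv _ _ c3 (by decide))]
    ac_rfl
  obtain ⟨w, hw, hspan⟩ := finrank_eq_one_iff'.1 hone
  obtain ⟨a, ha⟩ := hspan ⟨σ u w.1, hLu.le (Submodule.mem_map_of_mem w.2)⟩
  obtain ⟨b, hb⟩ := hspan ⟨σ v w.1, hLv.le (Submodule.mem_map_of_mem w.2)⟩
  have ha' : σ u w.1 = a • w.1 := (congrArg Subtype.val ha).symm
  have hb' : σ v w.1 = b • w.1 := (congrArg Subtype.val hb).symm
  have hw0 : w.1 ≠ 0 := fun e => hw (Subtype.ext e)
  have e := DFunLike.congr_fun hanti w.1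
  rw [LinearMap.neg_apply, rep_mul_apply σ u v, rep_mul_apply σ v u, ha', hb', map_smul, map_smul, ha', hb',
    smul_smul, smul_smul, mul_comm a b, eq_neg_iff_add_eq_zero, ← two_smul k, smul_smul] at e
  rcases mul_eq_zero.1 (((mul_eq_zero.1 ((smul_eq_zero.1 e).resolve_right hw0)).resolve_left h2)) with h0 | h0
  · exact hw0 (rep_injective σ v (by rw [hb', h0, zero_smul, map_zero]))
  · exact hw0 (rep_injective σ u (by rw [ha', h0, zero_smul, map_zero]))

end CfsgLib.E6AltSection
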