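import Cfsg.Agent.E6AltSection.SpinPart
import Cfsg.Agent.E6AltSection.HonestPart
import Cfsg.Agent.E6AltSection.Rep
import Cfsg.Agent.AltExc.Setup

/-!
No alternating section of degree twelve in characteristic at least seven.
-/

set_option autoImplicit false
set_option linter.unusedSectionVars false
set_option linter.style.haveILetI false

namespace CfsgLib.E6AltSection

open Module Equiv CfsgLib.AltLinear Cfsg.Lie
open scoped commutatorElement

theorem no_central {p : ℕ} [Fact p.Prime] (hp : 7 ≤ p) {Γ : Type} [Group Γ] [Finite Γ] {π : Γ →* Alt 12}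
    (hπ : Function.Surjective π) (hcen : π.ker ≤ Subgroup.center Γ) (hperf : commutator Γ = ⊤) {g : Γ}
    (hg : π g = em five c5) (hg5 : g ^ 5 = 1) {W : Type} [AddCommGroup W] [Module (Kp p) W]
    [FiniteDimensional (Kp p) W] (ρ : Representation (Kp p) Γ W) (hW : finrank (Kp p) W = 27)
    (h1 : edim (ρ g) 1 = 7) (hspec : ∀ μ : Kp p, μ ^ 5 = 1 → μ ≠ 1 → edim (ρ g) μ = 5) : False := by
  classical
  have hcast : ∀ l : ℕ, l.Prime → l < 7 → ((l : ℕ) : Kp p) ≠ 0 := fun l hl hlt h => by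
    have := (Nat.prime_dvd_prime_iff_eq Fact.out hl).1 ((CharP.cast_eq_zero_iff (Kp p) p l).1 h)
    omega
  have h2 : (2 : Kp p) ≠ 0 := by simpa using hcast 2 Nat.prime_two (by norm_num)
  have h3 : (3 : Kp p) ≠ 0 := by simpa using hcast 3 Nat.prime_three (by norm_num)
  have h5 : ((5 : ℕ) : Kp p) ≠ 0 := hcast 5 Nat.prime_five (by norm_num)
  haveI : NeZero ((5 : ℕ) : Kp p) := ⟨h5⟩
  obtain ⟨ζ, hζ⟩ := HasEnoughRootsOfUnity.exists_primitiveRoot (Kp p) 5
  let q : Γ →* Perm (Fin 12) := (alternatingGroup (Fin 12)).subtype.comp π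
  have hker : q.ker = π.ker := Subgroup.ext fun x => by simp [q, MonoidHom.mem_ker]
  have hext : CfsgLib.AltCover.IsExt q := ⟨by
    refine le_antisymm ?_ fun x hx => ?_
    · rintro _ ⟨y, rfl⟩; exact (π y).2
    · obtain ⟨y, hy⟩ := hπ ⟨x, hx⟩
      exact ⟨y, congrArg Subtype.val hy⟩, hker ▸ hcen⟩
  obtain ⟨δ, hδ2, ⟨u, v, hu, hv, huv⟩, hle⟩ := CfsgLib.AltCover.ker_le_zpowers_klein (m := 10) (by norm_num)
    (Or.inr (by norm_num)) hext (by rw [hperf]; exact le_top)
  have hδk : δ ∈ π.ker := by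
    rw [MonoidHom.mem_ker, ← huv, map_commutatorElement, commutatorElement_eq_one_iff_mul_comm]
    apply Subtype.ext
    show q u * q v = q v * q u
    rw [hu, hv]
    exact (CfsgLib.AltCover.four_facts (n := 12) (by norm_num)).2.1
  have hkmem : ∀ z, π z = 1 → z = 1 ∨ z = δ := fun z hz => by
    have hz' : z ∈ q.ker := by rw [hker]; exact hz
    obtain ⟨i, hi⟩ := Subgroup.mem_zpowers_iff.1 (hle hz')
    rcases Int.even_or_odd i with ⟨j, hj⟩ | ⟨j, hj⟩
    · left; rw [← hi, hj, ← two_mul, zpow_mul, zpow_two, hδ2, one_zpow]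
    · right; rw [← hi, hj, zpow_add, zpow_mul, zpow_two, hδ2, one_zpow, one_mul, zpow_one]
  have hδc : ∀ x, x * δ = δ * x := fun x => Subgroup.mem_center_iff.1 (hcen hδk) x
  set U := Module.End.eigenspace (ρ δ) 1 with hU'
  have hU : ∀ h, ∀ x ∈ U, ρ h x ∈ U := fun h => eigen_invariant ρ (hδc h) 1
  have hadd : ∀ μ, edim (ρ g) μ = edim (restrictRep ρ U hU g) μ + edim (quotRep ρ U hU g) μ :=
    edim_add (ρ g) h5 (by rw [← map_pow, hg5, map_one]) U (hU g) hζ
  have hδU : restrictRep ρ U hU δ = 1 := (restrictRep_eq_one_iff ρ U hU δ).2 fun x hx => by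
    simpa using End.mem_eigenspace_iff.1 hx
  have hδQ : quotRep ρ U hU δ = -1 := Submodule.linearMap_qext _ (LinearMap.ext fun x => by
    show Submodule.Quotient.mk (ρ δ x) = -Submodule.Quotient.mk (p := U) x
    rw [← Submodule.Quotient.mk_neg, Submodule.Quotient.eq, sub_neg_eq_add, hU', End.mem_eigenspace_iff, map_add,
      ← rep_mul_apply, hδ2, map_one, one_smul, Module.End.one_apply, add_comm])
  -- the spin part
  have hspin : Spin π (quotRep ρ U hU) := by
    refine ⟨hπ, fun z hz => ?_, fun e a b ha hb' => ?_⟩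
    · rcases hkmem z hz with rfl | rfl
      · exact ⟨one_mul 1, Or.inl (map_one _), fun g => by rw [mul_one, one_mul]⟩
      · exact ⟨hδ2, Or.inr hδQ, hδc⟩
    · let c4 : Fin 4 ↪ Fin 12 := Fin.castLEEmb (by norm_num)
      obtain ⟨g₀, hg₀⟩ := exists_em_conj c4 e (by norm_num)
      obtain ⟨G, hG⟩ := hπ g₀
      have s1 : CfsgLib.AltCover.sgen 12 1 = (em c4 t4).1 := by
        rw [← CfsgLib.AltCover.incl_sgen (show 4 ≤ 12 by norm_num) (show 1 + 2 < 4 by norm_num)]
        show Perm.viaEmbeddingHom _ _ = Perm.viaEmbeddingHom _ _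
        congr 1
      have s2 : CfsgLib.AltCover.rgen 12 = (em c4 (t4 * u4)).1 := by
        rw [← CfsgLib.AltCover.incl_rgen (show 4 ≤ 12 by norm_num) le_rfl]
        show Perm.viaEmbeddingHom _ _ = Perm.viaEmbeddingHom _ _
        congr 1; decide
      have e1 : π (G * u * G⁻¹) = em e t4 := by
        rw [map_mul, map_mul, map_inv, hG, ← hg₀]
        congr 2
        exact Subtype.ext (hu.trans s1)
      have e2 : π (G * v * G⁻¹) = π (a * b) := by
        rw [map_mul, map_mul, map_inv, hG, map_mul, ha, hb', ← map_mul, ← hg₀]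
        congr 2
        exact Subtype.ext (hv.trans s2)
      have hcc : ∀ x y, π x = π y → ∃ z ∈ Subgroup.center Γ, x = z * y := fun x y hxy =>
        ⟨x * y⁻¹, hcen (by rw [MonoidHom.mem_ker, map_mul, map_inv, hxy, mul_inv_cancel]), by group⟩
      obtain ⟨z1, hz1, f1⟩ := hcc _ _ (e1.trans ha.symm)
      obtain ⟨z2, hz2, f2⟩ := hcc _ _ e2
      have hconj : ⁅G * u * G⁻¹, G * v * G⁻¹⁆ = δ := by
        rw [show ⁅G * u * G⁻¹, G * v * G⁻¹⁆ = G * ⁅u, v⁆ * G⁻¹ by simp only [commutatorElement_def]; group, huv,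
          hδc, mul_inv_cancel_right]
      rw [f1, f2, CfsgLib.SchurMult.commutatorElement_mul_central hz1 hz2] at hconj
      have hab : a * b = δ * (b * a) := by
        calc a * b = a⁻¹ * ⁅a, a * b⁆ * a * (b * a) := by rw [commutatorElement_def]; group
          _ = δ * (b * a) := by
            rw [hconj, hδc a⁻¹, mul_assoc δ, inv_mul_cancel, mul_one]
      rw [hab, map_mul, hδQ]; exact neg_one_mul (_ : Module.End (Kp p) (W ⧸ U))
  -- the part of the alternating group
  let R : Γ →* (Module.End (Kp p) U)ˣ := MonoidHom.toHomUnits (restrictRep ρ U hU)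
  have hR : π.ker ≤ R.ker := fun z hz => by
    rcases hkmem z hz with rfl | rfl
    · exact one_mem _
    · exact Units.ext hδU
  let σ : Representation (Kp p) (Alt 12) U := (Units.coeHom _).comp (π.liftOfSurjective hπ ⟨R, hR⟩)
  have hσ : ∀ h, σ (π h) = restrictRep ρ U hU h := fun h =>
    congrArg Units.val (MonoidHom.liftOfRightInverse_comp_apply π _ _ _ h)
  have hne : ∃ y, σ y ≠ 1 := by
    by_contra hall
    push Not at hall
    have hζ1 : ζ ≠ 1 := hζ.ne_one (by norm_num)
    have := hadd ζ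
    rw [hspec ζ hζ.pow_eq_one hζ1, ← hσ, hall, edim_one_end, if_neg hζ1, zero_add] at this
    obtain ⟨a, ha⟩ := spin_five_even hspin h2 hg hg5 ζ
    omega
  obtain ⟨y, hy⟩ := hne
  have h11 := alt_section_bound 12 (by norm_num) _ p U rfl (Alt 12) σ (MonoidHom.id _) Function.surjective_id
    (fun h hh => by
      by_contra hne
      exact hy (eq_one_of_map_eq_one (by norm_num) σ hne hh y))
  have hnd : ¬ p ∣ 12 := fun h => by
    have hp' : p.Prime := Fact.out
    rcases (hp'.dvd_mul).1 (show p ∣ 4 * 3 from h) with h | h <;> have := Nat.le_of_dvd (by norm_num) h <;> omega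
  rw [altBound, if_neg hnd] at h11
  have hsum := U.finrank_quotient_add_finrank
  have hQ : finrank (Kp p) (W ⧸ U) = 0 := by
    by_contra h0
    haveI : Nontrivial (W ⧸ U) := Module.nontrivial_of_finrank_pos (R := Kp p) (Nat.pos_of_ne_zero h0)
    exact spin_small hspin h2 h3 (by omega)
  have he : ∀ μ, edim (σ (em five c5)) μ = edim (ρ g) μ := fun μ => by
    rw [← hg, hσ, hadd, edim, edim]
    have := Submodule.finrank_le (End.eigenspace (quotRep ρ U hU g) μ)
    omega
  exact no_honest hp σ (by omega) ((he 1).trans h1) fun μ hμ hμ1 => (he μ).trans (hspec μ hμ hμ1)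

theorem orderOf_five_cycle : orderOf (em five c5) = 5 := by
  haveI := Fact.mk Nat.prime_five
  exact orderOf_eq_prime (by rw [← map_pow, c5_pow, map_one]) (em_ne_one five c5_ne_one)

/-- The core statement. -/
theorem no_twelve {F : Type} [Field F] [Fintype F] {p : ℕ} [Fact p.Prime] [CharP F p] (hp : 7 ≤ p)
    (hq : 5 ∣ Fintype.card F - 1) (hF : 65 ≤ Fintype.card F) (H : Subgroup ↥(chevE6.group F)) (φ : H →* Alt 12)
    (hφ : Function.Surjective φ) : False := by
  classical
  haveI : Finite (chevE6.SteinbergCover F) := finite_cover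
  let θ' : chevE6.SteinbergCover F →* ↥(chevE6.group F) := (θm F).codRestrict _ theta_mem_group
  obtain ⟨Γ, π, hπ, hmin⟩ := CfsgLib.AltExc.exists_min (H.comap θ') (φ.comp (θ'.subgroupComap H)) (fun y => by
    obtain ⟨h, rfl⟩ := hφ y
    obtain ⟨x, hx⟩ := exists_theta h.1.2
    have hx' : θ' x = h.1 := Subtype.ext hx
    exact ⟨⟨x, by rw [Subgroup.mem_comap, hx']; exact h.2⟩, congrArg φ (Subtype.ext hx')⟩)
  obtain ⟨g, hgπ, hg5, hlift⟩ := lift_five hπ (five_not_dvd_ker hq Γ π hπ hmin) orderOf_five_cycle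
  have hd : FiveData π g := ⟨hgπ, hg5, fun y => by
    obtain ⟨x, hx⟩ := hπ (em seven y)
    obtain ⟨x', hx', hxg⟩ := hlift x 1 (by rw [hx, em_comm seven five y c5 (by decide), mul_inv_cancel_right, pow_one])
    exact ⟨x', hx'.trans hx, mul_inv_eq_iff_eq_mul.1 (hxg.trans (pow_one g))⟩⟩
  have hθ : θm F (g : chevE6.SteinbergCover F) ≠ 1 := fun h => hd.ne (by
    have : g = 1 := Subtype.ext (eq_one_of_coprime (show Nat.Coprime 3 5 by norm_num) (ker_theta h)
      (congrArg Subtype.val hg5))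
    rw [this, map_one])
  obtain ⟨y, hy⟩ : ∃ y : Γ, y * g * y⁻¹ = g ^ 2 := by
    let s : Alt 12 := ⟨swap 1 2 * swap 2 4 * swap 4 3 * swap 5 6, Perm.mem_alternatingGroup.2 (by decide)⟩
    obtain ⟨x, hx⟩ := hπ s
    obtain ⟨x', -, h'⟩ := hlift x 2 (by
      rw [hx, em_conj s five (dbl.toEmbedding.trans five) c5 (by decide), em_c5_sq])
    exact ⟨x', h'⟩
  obtain ⟨ι⟩ := exists_iota (F := F) p
  obtain ⟨e1, e5⟩ := spectral_five (show p ≠ 5 by omega) hq hF ι (congrArg Subtype.val hg5) hθ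
    (congrArg Subtype.val hy)
  have h5 : ((5 : ℕ) : Kp p) ≠ 0 := fun h => by
    have := (Nat.prime_dvd_prime_iff_eq Fact.out Nat.prime_five).1 ((CharP.cast_eq_zero_iff (Kp p) p 5).1 h)
    omega
  haveI : NeZero ((5 : ℕ) : Kp p) := ⟨h5⟩
  obtain ⟨ζ, hζ⟩ := HasEnoughRootsOfUnity.exists_primitiveRoot (Kp p) 5
  let ρ : Representation (Kp p) Γ (I27 → Kp p) := (rep ι).comp Γ.subtype
  obtain ⟨W, _, _, _, ρ', hW, hedim, hcomm⟩ := exists_semisimple hπ hmin hd h5 hζ 27 (I27 → Kp p) ρ
    (by rw [Module.finrank_fintype_fun_eq_card]; rfl) le_rfl (fun μ hμ => by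
      show edim (rep ι g.1) μ ≤ 7
      by_cases h : μ = 1
      · subst h; exact e1.le
      · rw [e5 μ hμ h]; norm_num)
  let ρu : Γ →* (Module.End (Kp p) W)ˣ := ρ'.toHomUnits
  rcases normal_eq_top_or_le (by norm_num) hπ hmin ρu.ker with htop | hle
  · have : ρ' g = 1 := congrArg Units.val (htop ▸ Subgroup.mem_top g : g ∈ ρu.ker)
    have h7 := (hedim 1).trans e1
    rw [this, edim_one_end, if_pos rfl, hW] at h7
    norm_num at h7
  set r := ρu.rangeRestrict with hr'
  have hr : Function.Surjective r := ρu.rangeRestrict_surjective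
  haveI : Finite ρu.range := Finite.of_surjective r hr
  let π' : ρu.range →* Alt 12 := r.liftOfSurjective hr
    ⟨π, fun x hx => hle (show ρu x = 1 from congrArg Subtype.val (show r x = 1 from hx))⟩
  have hπ' : ∀ h, π' (r h) = π h := fun h => MonoidHom.liftOfRightInverse_comp_apply _ _ _ _ h
  refine no_central hp (π := π') (fun x => by obtain ⟨h, rfl⟩ := hπ x; exact ⟨_, hπ' h⟩) (fun z hz => ?_) ?_
    (g := r g) ((hπ' g).trans hgπ) (by rw [← map_pow, hg5, map_one]) ((Units.coeHom _).comp ρu.range.subtype) hW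
    ((hedim 1).trans e1) fun μ hμ hμ1 => (hedim μ).trans (e5 μ hμ hμ1)
  · obtain ⟨z, rfl⟩ := hr z
    refine Subgroup.mem_center_iff.2 fun x => ?_
    obtain ⟨x, rfl⟩ := hr x
    refine Subtype.ext (Units.ext ?_)
    exact (hcomm z (by rw [MonoidHom.mem_ker, ← hπ']; exact hz) x).symm
  · rw [commutator_def, ← Subgroup.map_top_of_surjective r hr, ← Subgroup.map_commutator, ← commutator_def,
      perfect_of_min (by norm_num) hπ hmin]

end CfsgLib.E6AltSection
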